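import Mathlib
import Cfsg.Agent.H179.OutMinus
import Cfsg.Agent.H137.SiegelRel

/-!
# `Cos2` for `PΩ⁻_2m(q)`, part A: torus, Weyl element and root elements (helper827)

`V = ⟨e_i, f_i⟩ ⊥ K`, `K = F[ω]` with its norm form.
-/

set_option autoImplicit false

namespace Cfsg.Agent.H827.DG.Minus

open QuadraticMap Cfsg.Agent.LieClassical.OrthCore Cfsg.Agent.LieClassical.OrthTrans
  Cfsg.Agent.LieClassical.OrthSimple Cfsg.Agent.ClassicalGeometry.OrthSemi
  Cfsg.Agent.ClassicalGeometry.OrthAutBasic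
  Cfsg.Agent.ClassicalGeometry.OrthSemiForms Cfsg.Agent.LieClassical.OrthForms
  Cfsg.Agent.H989.OutOrth.Basic Cfsg.Agent.H179.OutMinus Cfsg.Agent.H887.SiegelMethod

/-! ### Siegel elements as elements of `Gam Q` -/

section General

variable {F V : Type*} [Field F] [AddCommGroup V] [Module F V] {Q : QuadraticForm F V}

/-- the Siegel element in `Gam Q` -/
noncomputable def S (Q : QuadraticForm F V) (u w : V) : Gam Q := ofO Q ⟨T Q u w, T_mem_O u w⟩

theorem S_apply {u w : V} (v : V) : (S Q u w).1 v = T Q u w v := rfl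

theorem S_mul {u w w' : V} (hu : Q u = 0) (hw : polar Q u w = 0) (hw' : polar Q u w' = 0) :
    S Q u w * S Q u w' = S Q u (w + w') := by
  rw [S, S, ← map_mul, S]
  congr 1
  exact Subtype.ext (T_mul hu hw hw')

theorem S_zero (u : V) : S Q u 0 = 1 := by
  rw [S, ← map_one (ofO Q)]
  congr 1
  exact Subtype.ext (T_zero_right u)

/-- conjugation of a Siegel element by a semisimilitude -/
theorem conj_S {M : Gam Q} {σ : F ≃+* F} {c : F} (hM : IsSS Q σ c M.1) {u w : V} (hu : Q u = 0)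
    (hw : polar Q u w = 0) : M * S Q u w * M⁻¹ = S Q (M.1 u) (c⁻¹ • M.1 w) := by
  obtain ⟨hu', hw', h⟩ := conjLin_siegel M hM hu hw
  rw [mul_inv_eq_iff_eq_mul]
  apply Subtype.ext
  ext v : 1
  show M.1 (T Q u w v) = T Q (M.1 u) (c⁻¹ • M.1 w) (M.1 v)
  rw [T_eq hu hw, T_eq hu' hw', ← h, conjLin_apply']

end General

/-! ### Coordinates -/

variable {F : Type*} [Field F] {a b : F} {m : ℕ}

/-- the norm of a unit -/
def nu (l : (Kx F a b)ˣ) : Fˣ := Units.map (QuadraticAlgebra.norm : Kx F a b →* F) l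

theorem coe_nu (l : (Kx F a b)ˣ) : ((nu l : Fˣ) : F) = QuadraticAlgebra.norm (l : Kx F a b) := rfl

theorem nu_mul (k l : (Kx F a b)ˣ) : nu (k * l) = nu k * nu l := map_mul _ _ _

theorem nu_inv (l : (Kx F a b)ˣ) : nu l⁻¹ = (nu l)⁻¹ := map_inv _ _

theorem nu_one : nu (1 : (Kx F a b)ˣ) = 1 := map_one _

/-- the torus element `(x, y, k) ↦ (A x, N(l) A⁻¹ y, l k)` -/
def tor (A : Fin m → Fˣ) (l : (Kx F a b)ˣ) : Equiv.Perm (W a b m) where
  toFun t := (fun i => (A i : F) * t.1 i, fun i => ((nu l * (A i)⁻¹ : Fˣ) : F) * t.2.1 i,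
    (l : Kx F a b) * t.2.2)
  invFun t := (fun i => ((A i)⁻¹ : Fˣ) * t.1 i, fun i => (((nu l * (A i)⁻¹)⁻¹ : Fˣ) : F) * t.2.1 i,
    ((l⁻¹ : (Kx F a b)ˣ) : Kx F a b) * t.2.2)
  left_inv t := by
    refine Prod.ext (funext fun i => ?_) (Prod.ext (funext fun i => ?_) ?_)
    · exact Units.inv_mul_cancel_left _ _
    · exact Units.inv_mul_cancel_left _ _
    · exact Units.inv_mul_cancel_left _ _
  right_inv t := by
    refine Prod.ext (funext fun i => ?_) (Prod.ext (funext fun i => ?_) ?_)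
    · exact Units.mul_inv_cancel_left _ _
    · exact Units.mul_inv_cancel_left _ _
    · exact Units.mul_inv_cancel_left _ _

theorem isSS_tor (A : Fin m → Fˣ) (l : (Kx F a b)ˣ) :
    IsSS (minusForm m F a b) (RingEquiv.refl F) (nu l : F) (perm a b m (tor A l)) := by
  refine isSS_perm (nu l).ne_zero _ ?_ ?_ ?_
  · intro s t
    refine Prod.ext (funext fun i => ?_) (Prod.ext (funext fun i => ?_) ?_)
    · exact mul_add _ _ _
    · exact mul_add _ _ _
    · exact mul_add _ _ _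
  · intro x t
    refine Prod.ext (funext fun i => ?_) (Prod.ext (funext fun i => ?_) ?_)
    · exact mul_left_comm _ _ _
    · exact mul_left_comm _ _ _
    · exact mul_smul_comm _ _ _
  · intro t
    show (∑ i : Fin m, ((A i : F) * t.1 i) * (((nu l * (A i)⁻¹ : Fˣ) : F) * t.2.1 i)) +
      QuadraticAlgebra.norm ((l : Kx F a b) * t.2.2) =
      (nu l : F) * ((∑ i : Fin m, t.1 i * t.2.1 i) + QuadraticAlgebra.norm t.2.2)
    rw [map_mul, mul_add, Finset.mul_sum, coe_nu]
    congr 1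
    refine Finset.sum_congr rfl fun i _ => ?_
    rw [Units.val_mul, coe_nu]
    have := (A i).mul_inv
    linear_combination QuadraticAlgebra.norm (l : Kx F a b) * t.1 i * t.2.1 i * this

/-- the torus -/
def TH (A : Fin m → Fˣ) (l : (Kx F a b)ˣ) : Gam (minusForm m F a b) :=
  ⟨perm a b m (tor A l), _, _, isSS_tor A l⟩

theorem isSS_TH (A : Fin m → Fˣ) (l : (Kx F a b)ˣ) :
    IsSS (minusForm m F a b) (RingEquiv.refl F) (nu l : F) (TH A l).1 := isSS_tor A l

theorem TH_apply (A : Fin m → Fˣ) (l : (Kx F a b)ˣ) (t : W a b m) :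
    (TH A l).1 (coordE a b m t) = coordE a b m (tor A l t) := perm_apply _ _

theorem TH_mul (A A' : Fin m → Fˣ) (l l' : (Kx F a b)ˣ) : TH (A * A') (l * l') = TH A l * TH A' l' := by
  apply ext_Gam
  intro t
  show _ = (TH A l).1 ((TH A' l').1 (coordE a b m t))
  rw [TH_apply, TH_apply, TH_apply]
  congr 1
  refine Prod.ext (funext fun i => ?_) (Prod.ext (funext fun i => ?_) ?_)
  · show (((A * A') i : Fˣ) : F) * t.1 i = (A i : F) * ((A' i : F) * t.1 i)
    rw [Pi.mul_apply, Units.val_mul, mul_assoc]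
  · show ((nu (l * l') * ((A * A') i)⁻¹ : Fˣ) : F) * t.2.1 i =
      ((nu l * (A i)⁻¹ : Fˣ) : F) * (((nu l' * (A' i)⁻¹ : Fˣ) : F) * t.2.1 i)
    rw [Pi.mul_apply, nu_mul, mul_inv, mul_mul_mul_comm, Units.val_mul, mul_assoc]
  · show ((l * l' : (Kx F a b)ˣ) : Kx F a b) * t.2.2 = (l : Kx F a b) * ((l' : Kx F a b) * t.2.2)
    rw [Units.val_mul, mul_assoc]

theorem TH_one : TH (1 : Fin m → Fˣ) (1 : (Kx F a b)ˣ) = 1 := by
  have h := TH_mul (m := m) (1 : Fin m → Fˣ) 1 (1 : (Kx F a b)ˣ) 1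
  rw [mul_one, mul_one] at h
  exact (mul_eq_left.1 h.symm)

theorem TH_comm (A A' : Fin m → Fˣ) (l l' : (Kx F a b)ˣ) : TH A l * TH A' l' = TH A' l' * TH A l := by
  rw [← TH_mul, ← TH_mul, mul_comm A, mul_comm l]

theorem TH_inv (A : Fin m → Fˣ) (l : (Kx F a b)ˣ) : (TH A l)⁻¹ = TH A⁻¹ l⁻¹ := by
  rw [inv_eq_iff_mul_eq_one, ← TH_mul, mul_inv_cancel, mul_inv_cancel, TH_one]

/-- `e_i` -/
def ee (a b : F) (i : Fin m) : (Fin m ⊕ Fin m) ⊕ Fin 2 → F := coordE a b m (Pi.single i 1, 0, 0)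

/-- `f_i` -/
def ff (a b : F) (i : Fin m) : (Fin m ⊕ Fin m) ⊕ Fin 2 → F := coordE a b m (0, Pi.single i 1, 0)

/-- `K → V` -/
def kk (m : ℕ) (z : Kx F a b) : (Fin m ⊕ Fin m) ⊕ Fin 2 → F := coordE a b m (0, 0, z)

theorem kk_add (y z : Kx F a b) : kk m (y + z) = kk m y + kk m z := by
  rw [kk, kk, kk, ← map_add]
  congr 1
  refine Prod.ext (add_zero _).symm (Prod.ext (add_zero _).symm rfl)

theorem kk_zero : kk m (0 : Kx F a b) = 0 := map_zero (coordE a b m)

theorem kk_smul (c : F) (z : Kx F a b) : kk m (c • z) = c • kk m z := by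
  rw [kk, kk, ← map_smul]
  congr 1
  refine Prod.ext (smul_zero _).symm (Prod.ext (smul_zero _).symm rfl)

theorem kk_neg (z : Kx F a b) : kk m (-z) = - kk m z := by
  rw [eq_neg_iff_add_eq_zero, ← kk_add, neg_add_cancel, kk_zero]

/-- the polar form in coordinates -/
theorem polar_coord (s t : W a b m) :
    polar (minusForm m F a b) (coordE a b m s) (coordE a b m t) =
      ∑ i : Fin m, (s.1 i * t.2.1 i + t.1 i * s.2.1 i) +
        (2 * s.2.2.re * t.2.2.re + a * (s.2.2.re * t.2.2.im + s.2.2.im * t.2.2.re) +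
          2 * b * s.2.2.im * t.2.2.im) := by
  rw [polar_minusForm]
  rfl

theorem Q_ee (i : Fin m) : minusForm m F a b (ee a b i) = 0 := by
  rw [ee, form_coordE, qW]
  simp

theorem Q_ff (i : Fin m) : minusForm m F a b (ff a b i) = 0 := by
  rw [ff, form_coordE, qW]
  simp

theorem Q_kk (z : Kx F a b) : minusForm m F a b (kk m z) = QuadraticAlgebra.norm z := by
  rw [kk, form_coordE, qW]
  simp

theorem polar_ee_kk (i : Fin m) (z : Kx F a b) : polar (minusForm m F a b) (ee a b i) (kk m z) = 0 := by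
  rw [ee, kk, polar_coord]
  simp

theorem polar_ff_kk (i : Fin m) (z : Kx F a b) : polar (minusForm m F a b) (ff a b i) (kk m z) = 0 := by
  rw [ff, kk, polar_coord]
  simp

theorem polar_ee_ff (i j : Fin m) :
    polar (minusForm m F a b) (ee a b i) (ff a b j) = if i = j then 1 else 0 := by
  rw [ee, ff, polar_coord]
  by_cases h : i = j
  · subst h
    simp [Pi.single_apply]
  · simp [Pi.single_apply, h, Ne.symm h]

theorem polar_ee_ee (i j : Fin m) : polar (minusForm m F a b) (ee a b i) (ee a b j) = 0 := by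
  rw [ee, ee, polar_coord]
  simp

theorem polar_ff_ff (i j : Fin m) : polar (minusForm m F a b) (ff a b i) (ff a b j) = 0 := by
  rw [ff, ff, polar_coord]
  simp

theorem TH_ee (A : Fin m → Fˣ) (l : (Kx F a b)ˣ) (i : Fin m) :
    (TH A l).1 (ee a b i) = (A i : F) • ee a b i := by
  rw [ee, TH_apply, ← map_smul]
  congr 1
  refine Prod.ext (funext fun j => ?_) (Prod.ext (funext fun j => ?_) ?_)
  · show (A j : F) * (Pi.single i 1 : Fin m → F) j = (A i : F) * (Pi.single i 1 : Fin m → F) j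
    by_cases h : j = i
    · rw [h]
    · rw [Pi.single_eq_of_ne h, mul_zero, mul_zero]
  · show _ * (0 : F) = (A i : F) * 0
    rw [mul_zero, mul_zero]
  · show (l : Kx F a b) * 0 = (A i : F) • (0 : Kx F a b)
    rw [mul_zero, smul_zero]

theorem TH_ff (A : Fin m → Fˣ) (l : (Kx F a b)ˣ) (i : Fin m) :
    (TH A l).1 (ff a b i) = ((nu l * (A i)⁻¹ : Fˣ) : F) • ff a b i := by
  rw [ff, TH_apply, ← map_smul]
  congr 1
  refine Prod.ext (funext fun j => ?_) (Prod.ext (funext fun j => ?_) ?_)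
  · show _ * (0 : F) = _ * 0
    rw [mul_zero, mul_zero]
  · show ((nu l * (A j)⁻¹ : Fˣ) : F) * (Pi.single i 1 : Fin m → F) j =
      ((nu l * (A i)⁻¹ : Fˣ) : F) * (Pi.single i 1 : Fin m → F) j
    by_cases h : j = i
    · rw [h]
    · rw [Pi.single_eq_of_ne h, mul_zero, mul_zero]
  · show (l : Kx F a b) * 0 = _ • (0 : Kx F a b)
    rw [mul_zero, smul_zero]

theorem TH_kk (A : Fin m → Fˣ) (l : (Kx F a b)ˣ) (z : Kx F a b) :
    (TH A l).1 (kk m z) = kk m ((l : Kx F a b) * z) := by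
  rw [kk, TH_apply, kk]
  congr 1
  refine Prod.ext (funext fun j => ?_) (Prod.ext (funext fun j => ?_) rfl)
  · exact mul_zero _
  · exact mul_zero _

/-! ### the Weyl element -/

section Weyl

variable [NeZero m]

/-- the Coxeter element: `e_i ↦ e_{i+1}`, `f_i ↦ f_{i+1}`, `e_{m-1} ↦ f_0`, `f_{m-1} ↦ e_0` -/
def wP (a b : F) (m : ℕ) [NeZero m] : Equiv.Perm (W a b m) where
  toFun t := (fun i => if i = 0 then t.2.1 (i - 1) else t.1 (i - 1),
    fun i => if i = 0 then t.1 (i - 1) else t.2.1 (i - 1), t.2.2)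
  invFun t := (fun i => if i + 1 = 0 then t.2.1 (i + 1) else t.1 (i + 1),
    fun i => if i + 1 = 0 then t.1 (i + 1) else t.2.1 (i + 1), t.2.2)
  left_inv t := by
    refine Prod.ext (funext fun i => ?_) (Prod.ext (funext fun i => ?_) rfl)
    · by_cases h : i + 1 = 0
      · have h2 : (-1 : Fin m) = i := (eq_neg_of_add_eq_zero_left h).symm
        simp [h, h2]
      · simp [h, add_sub_cancel_right]
    · by_cases h : i + 1 = 0
      · have h2 : (-1 : Fin m) = i := (eq_neg_of_add_eq_zero_left h).symm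
        simp [h, h2]
      · simp [h, add_sub_cancel_right]
  right_inv t := by
    refine Prod.ext (funext fun i => ?_) (Prod.ext (funext fun i => ?_) rfl)
    · by_cases h : i = 0 <;> simp [h]
    · by_cases h : i = 0 <;> simp [h]

theorem isSS_wP : IsSS (minusForm m F a b) (RingEquiv.refl F) 1 (perm a b m (wP a b m)) := by
  refine isSS_perm one_ne_zero _ ?_ ?_ ?_
  · intro s t
    refine Prod.ext (funext fun i => ?_) (Prod.ext (funext fun i => ?_) rfl)
    · show (if i = 0 then (s.2.1 + t.2.1) (i - 1) else (s.1 + t.1) (i - 1)) =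
        (if i = 0 then s.2.1 (i - 1) else s.1 (i - 1)) + (if i = 0 then t.2.1 (i - 1) else t.1 (i - 1))
      split_ifs <;> rfl
    · show (if i = 0 then (s.1 + t.1) (i - 1) else (s.2.1 + t.2.1) (i - 1)) =
        (if i = 0 then s.1 (i - 1) else s.2.1 (i - 1)) + (if i = 0 then t.1 (i - 1) else t.2.1 (i - 1))
      split_ifs <;> rfl
  · intro x t
    refine Prod.ext (funext fun i => ?_) (Prod.ext (funext fun i => ?_) rfl)
    · show (if i = 0 then (x • t.2.1) (i - 1) else (x • t.1) (i - 1)) =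
        x • (if i = 0 then t.2.1 (i - 1) else t.1 (i - 1))
      split_ifs <;> rfl
    · show (if i = 0 then (x • t.1) (i - 1) else (x • t.2.1) (i - 1)) =
        x • (if i = 0 then t.1 (i - 1) else t.2.1 (i - 1))
      split_ifs <;> rfl
  · intro t
    rw [one_mul]
    show (∑ i : Fin m, (if i = 0 then t.2.1 (i - 1) else t.1 (i - 1)) *
      (if i = 0 then t.1 (i - 1) else t.2.1 (i - 1))) + QuadraticAlgebra.norm t.2.2 =
        (∑ i : Fin m, t.1 i * t.2.1 i) + QuadraticAlgebra.norm t.2.2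
    congr 1
    rw [← Equiv.sum_comp (Equiv.subRight (1 : Fin m)) fun i => t.1 i * t.2.1 i]
    refine Finset.sum_congr rfl fun i _ => ?_
    simp only [Equiv.subRight_apply]
    split_ifs
    · exact mul_comm _ _
    · rfl

/-- the Coxeter element in `Gam Q` -/
def wC (a b : F) (m : ℕ) [NeZero m] : Gam (minusForm m F a b) := ⟨perm a b m (wP a b m), _, _, isSS_wP⟩

theorem isSS_wC : IsSS (minusForm m F a b) (RingEquiv.refl F) 1 (wC a b m).1 := isSS_wP

theorem wC_apply (t : W a b m) : (wC a b m).1 (coordE a b m t) = coordE a b m (wP a b m t) := perm_apply _ _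

theorem wC_kk (z : Kx F a b) : (wC a b m).1 (kk m z) = kk m z := by
  rw [kk, wC_apply]
  congr 1
  refine Prod.ext (funext fun j => ?_) (Prod.ext (funext fun j => ?_) rfl)
  · show (if j = 0 then (0 : F) else 0) = 0
    split_ifs <;> rfl
  · show (if j = 0 then (0 : F) else 0) = 0
    split_ifs <;> rfl

theorem wC_ee {i : Fin m} (h : i + 1 ≠ 0) : (wC a b m).1 (ee a b i) = ee a b (i + 1) := by
  rw [ee, wC_apply, ee]
  congr 1
  refine Prod.ext (funext fun j => ?_) (Prod.ext (funext fun j => ?_) rfl)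
  · show (if j = 0 then (0 : F) else (Pi.single i 1 : Fin m → F) (j - 1)) =
      (Pi.single (i + 1) 1 : Fin m → F) j
    split_ifs with h1
    · rw [h1, Pi.single_eq_of_ne (Ne.symm h)]
    · rw [Pi.single_apply, Pi.single_apply]
      exact if_congr sub_eq_iff_eq_add rfl rfl
  · show (if j = 0 then (Pi.single i 1 : Fin m → F) (j - 1) else 0) = 0
    split_ifs with h1
    · rw [Pi.single_eq_of_ne]
      rintro h2
      exact h (by rw [← h2, h1, sub_add_cancel])
    · rfl

theorem wC_ff {i : Fin m} (h : i + 1 ≠ 0) : (wC a b m).1 (ff a b i) = ff a b (i + 1) := by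
  rw [ff, wC_apply, ff]
  congr 1
  refine Prod.ext (funext fun j => ?_) (Prod.ext (funext fun j => ?_) rfl)
  · show (if j = 0 then (Pi.single i 1 : Fin m → F) (j - 1) else 0) = 0
    split_ifs with h1
    · rw [Pi.single_eq_of_ne]
      rintro h2
      exact h (by rw [← h2, h1, sub_add_cancel])
    · rfl
  · show (if j = 0 then (0 : F) else (Pi.single i 1 : Fin m → F) (j - 1)) =
      (Pi.single (i + 1) 1 : Fin m → F) j
    split_ifs with h1
    · rw [h1, Pi.single_eq_of_ne (Ne.symm h)]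
    · rw [Pi.single_apply, Pi.single_apply]
      exact if_congr sub_eq_iff_eq_add rfl rfl

theorem wC_ee_last {i : Fin m} (h : i + 1 = 0) : (wC a b m).1 (ee a b i) = ff a b 0 := by
  rw [ee, wC_apply, ff]
  congr 1
  refine Prod.ext (funext fun j => ?_) (Prod.ext (funext fun j => ?_) rfl)
  · show (if j = 0 then (0 : F) else (Pi.single i 1 : Fin m → F) (j - 1)) = 0
    split_ifs with h1
    · rfl
    · rw [Pi.single_eq_of_ne]
      rintro h2
      exact h1 (by rw [← h, ← h2, sub_add_cancel])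
  · show (if j = 0 then (Pi.single i 1 : Fin m → F) (j - 1) else 0) = (Pi.single 0 1 : Fin m → F) j
    split_ifs with h1
    · rw [h1, Pi.single_eq_same]
      have h2 : (0 : Fin m) - 1 = i := by rw [← h, add_sub_cancel_right]
      rw [h2, Pi.single_eq_same]
    · rw [Pi.single_eq_of_ne h1]

theorem wC_ff_last {i : Fin m} (h : i + 1 = 0) : (wC a b m).1 (ff a b i) = ee a b 0 := by
  rw [ff, wC_apply, ee]
  congr 1
  refine Prod.ext (funext fun j => ?_) (Prod.ext (funext fun j => ?_) rfl)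
  · show (if j = 0 then (Pi.single i 1 : Fin m → F) (j - 1) else 0) = (Pi.single 0 1 : Fin m → F) j
    split_ifs with h1
    · rw [h1, Pi.single_eq_same]
      have h2 : (0 : Fin m) - 1 = i := by rw [← h, add_sub_cancel_right]
      rw [h2, Pi.single_eq_same]
    · rw [Pi.single_eq_of_ne h1]
  · show (if j = 0 then (0 : F) else (Pi.single i 1 : Fin m → F) (j - 1)) = 0
    split_ifs with h1
    · rfl
    · rw [Pi.single_eq_of_ne]
      rintro h2
      exact h1 (by rw [← h, ← h2, sub_add_cancel])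

/-- the torus is normalised by the Coxeter element -/
theorem wC_TH (A : Fin m → Fˣ) (l : (Kx F a b)ˣ) :
    wC a b m * TH A l = TH (fun i => if i = 0 then nu l * (A (i - 1))⁻¹ else A (i - 1)) l * wC a b m := by
  apply ext_Gam
  intro t
  show (wC a b m).1 ((TH A l).1 (coordE a b m t)) = (TH _ l).1 ((wC a b m).1 (coordE a b m t))
  rw [TH_apply, wC_apply, wC_apply, TH_apply]
  congr 1
  refine Prod.ext (funext fun i => ?_) (Prod.ext (funext fun i => ?_) rfl)
  · show (if i = 0 then ((nu l * (A (i - 1))⁻¹ : Fˣ) : F) * t.2.1 (i - 1) else (A (i - 1) : F) * t.1 (i - 1)) =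
      (((if i = 0 then nu l * (A (i - 1))⁻¹ else A (i - 1)) : Fˣ) : F) *
        (if i = 0 then t.2.1 (i - 1) else t.1 (i - 1))
    split_ifs <;> rfl
  · show (if i = 0 then (A (i - 1) : F) * t.1 (i - 1) else ((nu l * (A (i - 1))⁻¹ : Fˣ) : F) * t.2.1 (i - 1)) =
      ((nu l * (if i = 0 then nu l * (A (i - 1))⁻¹ else A (i - 1))⁻¹ : Fˣ) : F) *
        (if i = 0 then t.1 (i - 1) else t.2.1 (i - 1))
    split_ifs
    · rw [mul_inv, inv_inv, mul_inv_cancel_left]
    · rfl

end Weyl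

/-! ### field automorphisms -/

theorem Ph_apply {φ : RingAut F} {ψ : RingAut (Kx F a b)} (h1 : ∀ (x : F) z, ψ (x • z) = φ x • ψ z)
    (h2 : ∀ z, QuadraticAlgebra.norm (ψ z) = φ (QuadraticAlgebra.norm z)) (t : W a b m) :
    (Ph m h1 h2).1 (coordE a b m t) = coordE a b m (TΦ φ ψ t) := perm_apply _ _

theorem Ph_ee {φ : RingAut F} {ψ : RingAut (Kx F a b)} (h1 : ∀ (x : F) z, ψ (x • z) = φ x • ψ z)
    (h2 : ∀ z, QuadraticAlgebra.norm (ψ z) = φ (QuadraticAlgebra.norm z)) (i : Fin m) :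
    (Ph m h1 h2).1 (ee a b i) = ee a b i := by
  rw [ee, Ph_apply]
  congr 1
  refine Prod.ext (funext fun j => ?_) (Prod.ext (funext fun j => map_zero φ) (map_zero ψ))
  show φ ((Pi.single i 1 : Fin m → F) j) = (Pi.single i 1 : Fin m → F) j
  rw [Pi.single_apply]
  split_ifs
  · exact map_one φ
  · exact map_zero φ

theorem Ph_ff {φ : RingAut F} {ψ : RingAut (Kx F a b)} (h1 : ∀ (x : F) z, ψ (x • z) = φ x • ψ z)
    (h2 : ∀ z, QuadraticAlgebra.norm (ψ z) = φ (QuadraticAlgebra.norm z)) (i : Fin m) :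
    (Ph m h1 h2).1 (ff a b i) = ff a b i := by
  rw [ff, Ph_apply]
  congr 1
  refine Prod.ext (funext fun j => map_zero φ) (Prod.ext (funext fun j => ?_) (map_zero ψ))
  show φ ((Pi.single i 1 : Fin m → F) j) = (Pi.single i 1 : Fin m → F) j
  rw [Pi.single_apply]
  split_ifs
  · exact map_one φ
  · exact map_zero φ

theorem Ph_kk {φ : RingAut F} {ψ : RingAut (Kx F a b)} (h1 : ∀ (x : F) z, ψ (x • z) = φ x • ψ z)
    (h2 : ∀ z, QuadraticAlgebra.norm (ψ z) = φ (QuadraticAlgebra.norm z)) (z : Kx F a b) :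
    (Ph m h1 h2).1 (kk m z) = kk m (ψ z) := by
  rw [kk, Ph_apply, kk]
  congr 1
  exact Prod.ext (funext fun j => map_zero φ) (Prod.ext (funext fun j => map_zero φ) rfl)

/-- the torus is normalised by the field automorphisms -/
theorem Ph_TH {φ : RingAut F} {ψ : RingAut (Kx F a b)} (h1 : ∀ (x : F) z, ψ (x • z) = φ x • ψ z)
    (h2 : ∀ z, QuadraticAlgebra.norm (ψ z) = φ (QuadraticAlgebra.norm z)) (A : Fin m → Fˣ) (l : (Kx F a b)ˣ) :
    Ph m h1 h2 * TH A l =
      TH (fun i => Units.map (φ : F →* F) (A i)) (Units.map (ψ : Kx F a b →* Kx F a b) l) * Ph m h1 h2 := by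
  apply ext_Gam
  intro t
  show (Ph m h1 h2).1 ((TH A l).1 (coordE a b m t)) = (TH _ _).1 ((Ph m h1 h2).1 (coordE a b m t))
  rw [TH_apply, Ph_apply, Ph_apply, TH_apply]
  congr 1
  refine Prod.ext (funext fun i => ?_) (Prod.ext (funext fun i => ?_) ?_)
  · exact map_mul φ _ _
  · show φ (((nu l * (A i)⁻¹ : Fˣ) : F) * t.2.1 i) =
      ((nu (Units.map (ψ : Kx F a b →* Kx F a b) l) * (Units.map (φ : F →* F) (A i))⁻¹ : Fˣ) : F) * φ (t.2.1 i)
    rw [map_mul]
    congr 1
    have h3 : nu (Units.map (ψ : Kx F a b →* Kx F a b) l) = Units.map (φ : F →* F) (nu l) :=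
      Units.ext (h2 _)
    rw [h3, ← map_inv, ← map_mul]
    rfl
  · exact map_mul ψ _ _

end Cfsg.Agent.H827.DG.Minus
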