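import Mathlib
import Cfsg.Agent.H827.DG.MinusA
import Cfsg.Agent.H136.TwoGen

/-!
# `Cos2` for `PΩ⁻_2m(q)`, part B: generation (helper827)

`h` a torus element, `n` a Coxeter element times a torus element times a field automorphism,
`u` in the root group of `e_0`: `⟨h, u n⟩` contains `E Q`.
-/

set_option autoImplicit false

namespace Cfsg.Agent.H827.DG.Minus

open QuadraticMap Cfsg.Agent.LieClassical.OrthCore Cfsg.Agent.LieClassical.OrthTrans
  Cfsg.Agent.LieClassical.OrthSimple Cfsg.Agent.ClassicalGeometry.OrthSemi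
  Cfsg.Agent.ClassicalGeometry.OrthAutBasic
  Cfsg.Agent.ClassicalGeometry.OrthSemiForms Cfsg.Agent.LieClassical.OrthForms
  Cfsg.Agent.H989.OutOrth.Basic Cfsg.Agent.H179.OutMinus Cfsg.Agent.H887.SiegelMethod

variable {F : Type*} [Field F] {a b : F} {m : ℕ}

/-! ### the root group of `e_i` -/

/-- `z ↦ T(u, z)` -/
noncomputable def xh (u : (Fin m ⊕ Fin m) ⊕ Fin 2 → F) (hu : minusForm m F a b u = 0)
    (hk : ∀ z : Kx F a b, polar (minusForm m F a b) u (kk m z) = 0) :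
    Multiplicative (Kx F a b) →* Gam (minusForm m F a b) where
  toFun z := S _ u (kk m z.toAdd)
  map_one' := by
    show S _ u (kk m 0) = 1
    rw [kk_zero, S_zero]
  map_mul' y z := by
    show S _ u (kk m (y.toAdd + z.toAdd)) = _
    rw [kk_add, S_mul hu (hk _) (hk _)]

theorem S_smul_left {u : (Fin m ⊕ Fin m) ⊕ Fin 2 → F} (hu : minusForm m F a b u = 0) (c : F)
    {z : Kx F a b} (hk : polar (minusForm m F a b) u (kk m z) = 0) :
    S (minusForm m F a b) (c • u) (kk m z) = S _ u (kk m (c • z)) := by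
  rw [kk_smul]
  unfold S
  congr 1
  exact Subtype.ext (T_smul_left c hu hk)

/-- the torus acts on the root group of `e_i` -/
theorem TH_S (A : Fin m → Fˣ) (l : (Kx F a b)ˣ) (i : Fin m) (z : Kx F a b) :
    TH A l * S _ (ee a b i) (kk m z) * (TH A l)⁻¹ =
      S _ (ee a b i) (kk m (((A i : F) * (nu l : F)⁻¹) • ((l : Kx F a b) * z))) := by
  rw [conj_S (isSS_TH A l) (Q_ee i) (polar_ee_kk i z), TH_ee, TH_kk, ← kk_smul,
    S_smul_left (Q_ee i) _ (polar_ee_kk i _), mul_smul]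

/-- the coordinate in `K` -/
def pK (a b : F) (m : ℕ) : ((Fin m ⊕ Fin m) ⊕ Fin 2 → F) →ₗ[F] Kx F a b :=
  (LinearMap.snd F (Fin m → F) (Kx F a b) ∘ₗ LinearMap.snd F (Fin m → F) ((Fin m → F) × Kx F a b)) ∘ₗ
    (coordE a b m).symm.toLinearMap

theorem pK_coord (t : W a b m) : pK a b m (coordE a b m t) = t.2.2 := rfl

theorem S_inj {i : Fin m} {y z : Kx F a b}
    (h : S (minusForm m F a b) (ee a b i) (kk m y) = S _ (ee a b i) (kk m z)) : y = z := by
  have key : ∀ z : Kx F a b, pK a b m ((S (minusForm m F a b) (ee a b i) (kk m z)).1 (ff a b i)) = z := by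
    intro z
    rw [S_apply, T_apply (Q_ee i) (polar_ee_kk i z), map_sub, map_sub, map_add, map_smul, map_smul, map_smul,
      polar_ee_ff, if_pos rfl]
    have e1 : pK a b m (ff a b i) = 0 := rfl
    have e2 : pK a b m (ee a b i) = 0 := rfl
    have e3 : pK a b m (kk m z) = z := rfl
    rw [e1, e2, e3]
    simp
  rw [← key y, ← key z, h]

/-! ### the closure of the root groups -/

section Closure

variable {M : Subgroup (Gam (minusForm m F a b))}

/-- the isometries in `M` -/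
def isoM (M : Subgroup (Gam (minusForm m F a b))) :
    Subgroup (((Fin m ⊕ Fin m) ⊕ Fin 2 → F) ≃ₗ[F] ((Fin m ⊕ Fin m) ⊕ Fin 2 → F)) :=
  (M.comap (ofO (minusForm m F a b))).map (O (minusForm m F a b)).subtype

theorem mem_isoM {g : ((Fin m ⊕ Fin m) ⊕ Fin 2 → F) ≃ₗ[F] ((Fin m ⊕ Fin m) ⊕ Fin 2 → F)}
    (hg : g ∈ O (minusForm m F a b)) : g ∈ isoM M ↔ ofO _ ⟨g, hg⟩ ∈ M := by
  constructor
  · rintro ⟨g', hg', rfl⟩
    exact hg'
  · intro h
    exact ⟨⟨g, hg⟩, h, rfl⟩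

theorem T_mem_isoM {u w : (Fin m ⊕ Fin m) ⊕ Fin 2 → F} :
    T (minusForm m F a b) u w ∈ isoM M ↔ S _ u w ∈ M := mem_isoM (T_mem_O u w)

/-- The full root group of `u` is in `M`. -/
def Full (M : Subgroup (Gam (minusForm m F a b))) (u : (Fin m ⊕ Fin m) ⊕ Fin 2 → F) : Prop :=
  ∀ z : Kx F a b, S _ u (kk m z) ∈ M

theorem Full.of_smul {u : (Fin m ⊕ Fin m) ⊕ Fin 2 → F} (hu : minusForm m F a b u = 0)
    (hk : ∀ z : Kx F a b, polar (minusForm m F a b) u (kk m z) = 0) {c : F} (hc : c ≠ 0)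
    (h : Full M (c • u)) : Full M u := by
  intro z
  have h1 := h (c⁻¹ • z)
  rwa [S_smul_left hu c (hk _), smul_smul, mul_inv_cancel₀ hc, one_smul] at h1

theorem Full.map {u : (Fin m ⊕ Fin m) ⊕ Fin 2 → F} (hu : minusForm m F a b u = 0)
    (hk : ∀ z : Kx F a b, polar (minusForm m F a b) u (kk m z) = 0) {n : Gam (minusForm m F a b)} (hn : n ∈ M)
    (hs : ∀ z : Kx F a b, ∃ y : Kx F a b, n.1 (kk m y) = kk m z) (h : Full M u) : Full M (n.1 u) := by
  intro z
  obtain ⟨σ, c, hσ⟩ := n.2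
  obtain ⟨y, hy⟩ := hs (c • z)
  have h1 := M.mul_mem (M.mul_mem hn (h y)) (M.inv_mem hn)
  rwa [conj_S hσ hu (hk _), hy, kk_smul, smul_smul, inv_mul_cancel₀ hσ.ne, one_smul] at h1

/-- `⟨k, _⟩ + 1 = ⟨k + 1, _⟩` -/
theorem fin_succ [NeZero m] {k : ℕ} (hk : k + 1 < m) :
    (⟨k, (Nat.lt_succ_self k).trans hk⟩ : Fin m) + 1 = ⟨k + 1, hk⟩ := by
  apply Fin.ext
  rw [Fin.val_add, Fin.val_one', Nat.add_mod_mod]
  exact Nat.mod_eq_of_lt hk

/-- The Coxeter element moves the root group of `e_0` to all the others. -/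
theorem full_all [NeZero m] (n : Gam (minusForm m F a b)) (hn : n ∈ M)
    (hs : ∀ z : Kx F a b, ∃ y : Kx F a b, n.1 (kk m y) = kk m z)
    (h1 : ∀ i : Fin m, i + 1 ≠ 0 → ∃ c : F, c ≠ 0 ∧ n.1 (ee a b i) = c • ee a b (i + 1))
    (h2 : ∀ i : Fin m, i + 1 ≠ 0 → ∃ c : F, c ≠ 0 ∧ n.1 (ff a b i) = c • ff a b (i + 1))
    (h3 : ∀ i : Fin m, i + 1 = 0 → ∃ c : F, c ≠ 0 ∧ n.1 (ee a b i) = c • ff a b 0)
    (h0 : Full M (ee a b 0)) : (∀ i, Full M (ee a b i)) ∧ ∀ i, Full M (ff a b i) := by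
  have key : ∀ (v : Fin m → ((Fin m ⊕ Fin m) ⊕ Fin 2 → F)) (_ : ∀ i, minusForm m F a b (v i) = 0)
      (_ : ∀ i (z : Kx F a b), polar (minusForm m F a b) (v i) (kk m z) = 0)
      (_ : ∀ i : Fin m, i + 1 ≠ 0 → ∃ c : F, c ≠ 0 ∧ n.1 (v i) = c • v (i + 1)) (_ : Full M (v 0)),
      ∀ i, Full M (v i) := by
    intro v hv hvk hst hv0
    have : ∀ (k : ℕ) (hk : k < m), Full M (v ⟨k, hk⟩) := by
      intro k
      induction k with
      | zero => intro hk; exact hv0
      | succ k ih =>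
        intro hk
        have e := fin_succ hk
        have hne : (⟨k, (Nat.lt_succ_self k).trans hk⟩ : Fin m) + 1 ≠ 0 := by
          rw [e]
          intro h
          exact absurd (congrArg Fin.val h) (by simp)
        obtain ⟨c, hc, h5⟩ := hst _ hne
        have h6 := Full.map (hv _) (hvk _) hn hs (ih ((Nat.lt_succ_self k).trans hk))
        rw [h5, e] at h6
        exact Full.of_smul (hv _) (hvk _) hc h6
    intro i
    exact this i.1 i.2
  have hE := key (ee a b) Q_ee polar_ee_kk h1 h0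
  refine ⟨hE, key (ff a b) Q_ff polar_ff_kk h2 ?_⟩
  obtain ⟨c, hc, h5⟩ := h3 (-1) (neg_add_cancel 1)
  have h6 := Full.map (Q_ee _) (polar_ee_kk _) hn hs (hE (-1))
  rw [h5] at h6
  exact Full.of_smul (Q_ff _) (polar_ff_kk _) hc h6

/-- the polar form on `K` takes all values -/
theorem exists_polar_kk (m : ℕ) [Finite F]
    (hab : ∀ z₁ z₂ : F, z₁ ^ 2 + a * z₁ * z₂ + b * z₂ ^ 2 = 0 → z₁ = 0 ∧ z₂ = 0) (c : F) :
    ∃ y z : Kx F a b, polar (minusForm m F a b) (kk m y) (kk m z) = c := by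
  have hp : ∀ y z : Kx F a b, polar (minusForm m F a b) (kk m y) (kk m z) =
      2 * y.re * z.re + a * (y.re * z.im + y.im * z.re) + 2 * b * y.im * z.im := by
    intro y z
    rw [kk, kk, polar_coord]
    simp
  have hne : ∃ y z : Kx F a b, polar (minusForm m F a b) (kk m y) (kk m z) ≠ 0 := by
    by_contra h
    push Not at h
    have h1 := h ⟨1, 0⟩ ⟨1, 0⟩
    have h2 := h ⟨1, 0⟩ ⟨0, 1⟩
    rw [hp] at h1 h2
    simp only [mul_one, mul_zero, add_zero, zero_add] at h1 h2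
    have h3 := binary_nondeg F a b hab (z := 1) (w := 0) (by rw [h1]; ring) (by rw [h2]; ring)
    exact one_ne_zero h3.1
  obtain ⟨y, z, h⟩ := hne
  refine ⟨y, (c * (polar (minusForm m F a b) (kk m y) (kk m z))⁻¹) • z, ?_⟩
  rw [kk_smul, polar_smul_right, smul_eq_mul, mul_assoc, inv_mul_cancel₀ h, mul_one]

/-- If `M` contains the root groups of all `e_i` and `f_i` then it contains `E Q`. -/
theorem E_le_isoM [NeZero m] [Finite F]
    (hab : ∀ z₁ z₂ : F, z₁ ^ 2 + a * z₁ * z₂ + b * z₂ ^ 2 = 0 → z₁ = 0 ∧ z₂ = 0)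
    (hG : Good (minusForm m F a b)) (hE : ∀ i : Fin m, Full M (ee a b i)) (hF : ∀ i : Fin m, Full M (ff a b i)) :
    E (minusForm m F a b) ≤ isoM M := by
  -- commutators
  have hcomm : ∀ u v : (Fin m ⊕ Fin m) ⊕ Fin 2 → F, minusForm m F a b u = 0 → minusForm m F a b v = 0 →
      polar (minusForm m F a b) u v = 0 → (∀ z : Kx F a b, polar (minusForm m F a b) u (kk m z) = 0) →
      (∀ z : Kx F a b, polar (minusForm m F a b) v (kk m z) = 0) → Full M u → Full M v →
      u ∈ Ts (minusForm m F a b) (isoM M) v := by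
    intro u v hu hv huv huk hvk hMu hMv
    refine ⟨by rw [polar_comm]; exact huv, fun c => ?_⟩
    obtain ⟨y, z, hyz⟩ := exists_polar_kk m hab c
    have h1 := Cfsg.Agent.H137.comm_T (H := isoM M) hu hv huv (huk y) (hvk y) (huk z) (hvk z)
      (T_mem_isoM.2 (hMu y)) (T_mem_isoM.2 (hMv z))
    rwa [hyz] at h1
  have hkk : ∀ u : (Fin m ⊕ Fin m) ⊕ Fin 2 → F,
      (∀ z : Kx F a b, polar (minusForm m F a b) u (kk m z) = 0) → Full M u → ∀ z : Kx F a b,
      kk m z ∈ Ts (minusForm m F a b) (isoM M) u := by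
    intro u huk hMu z
    refine ⟨huk z, fun c => ?_⟩
    rw [← kk_smul]
    exact T_mem_isoM.2 (hMu _)
  -- decomposition of a vector
  have hdec : ∀ t : W a b m, coordE a b m t =
      ∑ i, t.1 i • ee a b i + ∑ i, t.2.1 i • ff a b i + kk m t.2.2 := by
    intro t
    have e1 : ∑ i, t.1 i • ee a b i = coordE a b m (t.1, 0, 0) := by
      have : (t.1, (0 : Fin m → F), (0 : Kx F a b)) = ∑ i, t.1 i • (Pi.single i (1 : F), (0 : Fin m → F), (0 : Kx F a b)) := by
        refine Prod.ext ?_ (Prod.ext ?_ ?_)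
        · rw [Prod.fst_sum]
          funext j
          simp [Finset.sum_apply, Pi.single_apply]
        · rw [Prod.snd_sum, Prod.fst_sum]
          simp
        · rw [Prod.snd_sum, Prod.snd_sum]
          simp
      rw [this, map_sum]
      refine Finset.sum_congr rfl fun i _ => ?_
      rw [map_smul]
      rfl
    have e2 : ∑ i, t.2.1 i • ff a b i = coordE a b m (0, t.2.1, 0) := by
      have : ((0 : Fin m → F), t.2.1, (0 : Kx F a b)) = ∑ i, t.2.1 i • ((0 : Fin m → F), Pi.single i (1 : F), (0 : Kx F a b)) := by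
        refine Prod.ext ?_ (Prod.ext ?_ ?_)
        · rw [Prod.fst_sum]
          simp
        · rw [Prod.snd_sum, Prod.fst_sum]
          funext j
          simp [Finset.sum_apply, Pi.single_apply]
        · rw [Prod.snd_sum, Prod.snd_sum]
          simp
      rw [this, map_sum]
      refine Finset.sum_congr rfl fun i _ => ?_
      rw [map_smul]
      rfl
    rw [e1, e2, kk, ← map_add, ← map_add]
    congr 1
    refine Prod.ext ?_ (Prod.ext ?_ ?_)
    · show t.1 = t.1 + 0 + 0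
      simp
    · show t.2.1 = 0 + t.2.1 + 0
      simp
    · show t.2.2 = 0 + 0 + t.2.2
      simp
  refine E_le_of_Ts hG (Q_ee 0) (Q_ff 0) (by rw [polar_ee_ff, if_pos rfl]; exact one_ne_zero) ?_ ?_
  · intro x hx
    obtain ⟨t, rfl⟩ := (coordE a b m).surjective x
    have h0 : t.2.1 0 = 0 := by
      rw [ee, polar_coord] at hx
      simpa [Pi.single_apply] using hx
    rw [hdec]
    refine Submodule.add_mem _ (Submodule.add_mem _ (Submodule.sum_mem _ fun i _ => Submodule.smul_mem _ _ ?_)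
      (Submodule.sum_mem _ fun i _ => ?_)) (hkk _ (polar_ee_kk 0) (hE 0) _)
    · exact hcomm _ _ (Q_ee i) (Q_ee 0) (polar_ee_ee i 0) (polar_ee_kk i) (polar_ee_kk 0) (hE i) (hE 0)
    · by_cases hi : i = 0
      · rw [hi, h0, zero_smul]
        exact Submodule.zero_mem _
      · exact Submodule.smul_mem _ _ (hcomm _ _ (Q_ff i) (Q_ee 0)
          (by rw [polar_comm, polar_ee_ff, if_neg (Ne.symm hi)]) (polar_ff_kk i) (polar_ee_kk 0) (hF i) (hE 0))
  · intro x hx
    obtain ⟨t, rfl⟩ := (coordE a b m).surjective x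
    have h0 : t.1 0 = 0 := by
      rw [ff, polar_coord] at hx
      simpa [Pi.single_apply] using hx
    rw [hdec]
    refine Submodule.add_mem _ (Submodule.add_mem _ (Submodule.sum_mem _ fun i _ => ?_)
      (Submodule.sum_mem _ fun i _ => Submodule.smul_mem _ _ ?_)) (hkk _ (polar_ff_kk 0) (hF 0) _)
    · by_cases hi : i = 0
      · rw [hi, h0, zero_smul]
        exact Submodule.zero_mem _
      · exact Submodule.smul_mem _ _ (hcomm _ _ (Q_ee i) (Q_ff 0)
          (by rw [polar_ee_ff, if_neg hi]) (polar_ee_kk i) (polar_ff_kk 0) (hE i) (hF 0))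
    · exact hcomm _ _ (Q_ff i) (Q_ff 0) (polar_ff_ff i 0) (polar_ff_kk i) (polar_ff_kk 0) (hF i) (hF 0)

end Closure

/-! ### the generation theorem -/

/-- an additive subgroup invariant under `g` or `g²`, `g` a generator of `Kˣ` -/
theorem inv_sub {K : Type*} [Field K] [Finite K] {g : Kˣ} (hg : ∀ c : Kˣ, c ∈ Subgroup.zpowers g) {l : Kˣ}
    (hl : l = g ∨ l = g ^ 2) (Y : AddSubgroup K) (hY : ∀ y ∈ Y, (l : K) * y ∈ Y) : Y = ⊥ ∨ Y = ⊤ := by
  have hpow : ∀ (k : ℕ), ∀ y ∈ Y, (l : K) ^ k * y ∈ Y := by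
    intro k
    induction k with
    | zero => intro y hy; rwa [pow_zero, one_mul]
    | succ k ih =>
      intro y hy
      rw [pow_succ, mul_assoc]
      exact ih _ (hY y hy)
  by_cases h : ∃ y ∈ Y, y ≠ 0
  · obtain ⟨y, hy, hy0⟩ := h
    right
    rw [eq_top_iff]
    intro z _
    refine Cfsg.Agent.H137.mem_of_sq_mul Y ?_ hy hy0 z
    intro c hc y hy
    obtain ⟨n, hn⟩ := mem_powers_iff_mem_zpowers.2 (hg (Units.mk0 c hc))
    have hn' : (g : K) ^ n = c := by
      have := congrArg Units.val hn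
      simpa using this
    rcases hl with h1 | h1
    · have := hpow (n * 2) y hy
      rwa [h1, pow_mul, hn'] at this
    · have := hpow n y hy
      rwa [h1, Units.val_pow_eq_pow_val, ← pow_mul, mul_comm 2 n, pow_mul, hn'] at this
  · left
    push Not at h
    rw [eq_bot_iff]
    intro y hy
    exact h y hy

section Gen

variable [NeZero m]

theorem gen_core [Finite F] (hab : ∀ z₁ z₂ : F, z₁ ^ 2 + a * z₁ * z₂ + b * z₂ ^ 2 = 0 → z₁ = 0 ∧ z₂ = 0)
    (hG : Good (minusForm m F a b)) {A : Fin m → Fˣ} {l : (Kx F a b)ˣ}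
    (hY : ∀ Y : AddSubgroup (Kx F a b),
      (∀ y ∈ Y, ((A 0 : F) * (nu l : F)⁻¹) • ((l : Kx F a b) * y) ∈ Y) → Y = ⊥ ∨ Y = ⊤)
    (hl : ∀ c : F, (l : Kx F a b) ≠ c • (1 : Kx F a b)) {B : Fin m → Fˣ} {l₂ : (Kx F a b)ˣ} {φ : RingAut F}
    {ψ : RingAut (Kx F a b)} (h1 : ∀ (x : F) z, ψ (x • z) = φ x • ψ z)
    (h2 : ∀ z, QuadraticAlgebra.norm (ψ z) = φ (QuadraticAlgebra.norm z)) {M : Subgroup (Gam (minusForm m F a b))}
    (hM : TH A l ∈ M) (hn : S _ (ee a b 0) (kk m (1 : Kx F a b)) * (wC a b m * TH B l₂ * Ph m h1 h2) ∈ M) :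
    E (minusForm m F a b) ≤ isoM M := by
  set n := wC a b m * TH B l₂ * Ph m h1 h2 with hndef
  set l' : (Kx F a b)ˣ := Units.map (ψ : Kx F a b →* Kx F a b) l with hl'
  set A' : Fin m → Fˣ := fun i => Units.map (φ : F →* F) (A i) with hA'
  -- the conjugate of `h`
  have hh1 : n * TH A l * n⁻¹ = TH (fun i => if i = 0 then nu l' * (A' (i - 1))⁻¹ else A' (i - 1)) l' := by
    rw [mul_inv_eq_iff_eq_mul, hndef, mul_assoc, Ph_TH, ← mul_assoc, mul_assoc (wC a b m), TH_comm, ← mul_assoc,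
      wC_TH, mul_assoc, mul_assoc, mul_assoc]
  have hXm : ∀ z : Kx F a b, S _ (ee a b 0) (kk m z) ∈ (xh (m := m) (ee a b 0) (Q_ee 0) (polar_ee_kk 0)).range :=
    fun z => ⟨Multiplicative.ofAdd z, rfl⟩
  have hconj : ∀ (C : Fin m → Fˣ) (k : (Kx F a b)ˣ),
      ∀ x ∈ (xh (m := m) (ee a b 0) (Q_ee 0) (polar_ee_kk 0)).range,
        TH C k * x * (TH C k)⁻¹ ∈ (xh (m := m) (ee a b 0) (Q_ee 0) (polar_ee_kk 0)).range := by
    rintro C k _ ⟨z, rfl⟩
    have := TH_S C k 0 z.toAdd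
    show TH C k * S _ (ee a b 0) (kk m z.toAdd) * (TH C k)⁻¹ ∈ _
    rw [this]
    exact hXm _
  have hne1 : ((A 0 : F) * (nu l : F)⁻¹) • ((l : Kx F a b) * 1) ≠ 1 := by
    intro h
    rw [mul_one] at h
    have hc : (A 0 : F) * (nu l : F)⁻¹ ≠ 0 := mul_ne_zero (A 0).ne_zero (inv_ne_zero (nu l).ne_zero)
    apply hl (((A 0 : F) * (nu l : F)⁻¹)⁻¹)
    rw [← h, smul_smul, inv_mul_cancel₀ hc, one_smul]
  have key := Cfsg.Agent.H136.TwoGen.torus_trick M (xh (m := m) (ee a b 0) (Q_ee 0) (polar_ee_kk 0)).range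
    (h := TH A l) (w := n) (u := S _ (ee a b 0) (kk m (1 : Kx F a b))) hM hn (hXm 1)
    (by rw [hh1]; exact hconj _ _)
    (by
      rw [hh1]
      intro x hx
      have h3 := hconj (fun i => if i = 0 then nu l' * (A' (i - 1))⁻¹ else A' (i - 1))⁻¹ l'⁻¹ x hx
      rwa [← TH_inv, inv_inv] at h3)
    (by
      intro Y hYX hYh
      let Z : AddSubgroup (Kx F a b) := Subgroup.toAddSubgroup'
        (Y.comap (xh (m := m) (ee a b 0) (Q_ee 0) (polar_ee_kk 0)))
      have hZ : ∀ z : Kx F a b, z ∈ Z ↔ S _ (ee a b 0) (kk m z) ∈ Y := fun z => Iff.rfl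
      rcases hY Z (fun y hy => by
        rw [hZ] at hy ⊢
        rw [← TH_S]
        exact hYh _ hy) with h3 | h3
      · left
        rw [eq_bot_iff]
        intro x hx
        obtain ⟨z, rfl⟩ := hYX hx
        have h4 : z.toAdd ∈ Z := hx
        rw [h3, AddSubgroup.mem_bot] at h4
        have h5 : z = 1 := h4
        rw [h5, map_one]
        exact Subgroup.mem_bot.2 rfl
      · right
        refine le_antisymm hYX ?_
        rintro _ ⟨z, rfl⟩
        have h4 : z.toAdd ∈ Z := by rw [h3]; exact AddSubgroup.mem_top _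
        exact h4)
    ⟨_, hXm 1, by
      intro h
      rw [← mul_inv_eq_iff_eq_mul, TH_S] at h
      exact hne1 (S_inj h)⟩
    (hconj _ _)
    (by rw [hh1]; exact TH_comm _ _ _ _)
    (by
      rw [hh1]
      intro h
      rw [← mul_inv_eq_iff_eq_mul, TH_S] at h
      have h3 := S_inj h
      rw [if_pos rfl, mul_one] at h3
      apply hl (A (0 - 1) : F)
      apply ψ.injective
      rw [h1, map_one]
      have h4 : ((nu l' * (A' (0 - 1))⁻¹ : Fˣ) : F) * (nu l' : F)⁻¹ = (φ (A (0 - 1) : F))⁻¹ := by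
        rw [Units.val_mul, mul_comm (nu l' : F), mul_assoc, mul_inv_cancel₀ (nu l').ne_zero, mul_one,
          Units.val_inv_eq_inv_val]
        rfl
      rw [h4] at h3
      have h5 : φ (A (0 - 1) : F) ≠ 0 := by
        rw [Ne, map_eq_zero]
        exact (A (0 - 1)).ne_zero
      rw [← h3, smul_smul, mul_inv_cancel₀ h5, one_smul]
      rfl)
  obtain ⟨hX, hnM⟩ := key
  have hn_ee : ∀ i : Fin m, n.1 (ee a b i) = (B i : F) • (wC a b m).1 (ee a b i) := by
    intro i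
    show (wC a b m).1 ((TH B l₂).1 ((Ph m h1 h2).1 (ee a b i))) = _
    rw [Ph_ee, TH_ee, isSS_wC.smul]
    rfl
  have hn_ff : ∀ i : Fin m, n.1 (ff a b i) = ((nu l₂ * (B i)⁻¹ : Fˣ) : F) • (wC a b m).1 (ff a b i) := by
    intro i
    show (wC a b m).1 ((TH B l₂).1 ((Ph m h1 h2).1 (ff a b i))) = _
    rw [Ph_ff, TH_ff, isSS_wC.smul]
    rfl
  obtain ⟨hE, hF⟩ := full_all n hnM (fun z => by
      refine ⟨ψ.symm ((l₂⁻¹ : (Kx F a b)ˣ) * z), ?_⟩
      show (wC a b m).1 ((TH B l₂).1 ((Ph m h1 h2).1 (kk m _))) = _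
      rw [Ph_kk, TH_kk, wC_kk]
      congr 1
      show (l₂ : Kx F a b) * ψ (ψ.symm _) = z
      rw [RingEquiv.apply_symm_apply, Units.mul_inv_cancel_left])
    (fun i hi => ⟨(B i : F), (B i).ne_zero, by rw [hn_ee, wC_ee hi]⟩)
    (fun i hi => ⟨_, (nu l₂ * (B i)⁻¹).ne_zero, by rw [hn_ff, wC_ff hi]⟩)
    (fun i hi => ⟨(B i : F), (B i).ne_zero, by rw [hn_ee, wC_ee_last hi]⟩)
    (fun z => hX (hXm z))
  exact E_le_isoM hab hG hE hF

end Gen

end Cfsg.Agent.H827.DG.Minus
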