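import Mathlib
import Cfsg.Agent.H827.DG.MinusB

/-!
# `Cos2` for `PΩ⁻_2m(q)`, part C: the outer classes (helper827)
-/

set_option autoImplicit false
set_option linter.unusedSectionVars false

namespace Cfsg.Agent.H827.DG.Minus

open QuadraticMap Cfsg.Agent.LieClassical.OrthCore Cfsg.Agent.LieClassical.OrthTrans
  Cfsg.Agent.LieClassical.OrthSimple Cfsg.Agent.ClassicalGeometry.OrthSemi
  Cfsg.Agent.ClassicalGeometry.OrthSemiCount Cfsg.Agent.ClassicalGeometry.OrthAut1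
  Cfsg.Agent.ClassicalGeometry.OrthAutBasic
  Cfsg.Agent.ClassicalGeometry.OrthSemiForms Cfsg.Agent.LieClassical.OrthForms
  Cfsg.Agent.H989.OutOrth.Abstract Cfsg.Agent.H989.OutOrth.Basic Cfsg.Agent.H989.OutOrth.Forms
  Cfsg.Agent.H179.OutMinus Cfsg.Agent.H887.SiegelMethod

variable {F : Type*} [Field F] {a b : F} {m : ℕ}

section Refl

variable [NeZero m]

/-- `h_0(s)` -/
def h0 (a b : F) (m : ℕ) [NeZero m] (s : Fˣ) : Gam (minusForm m F a b) :=
  TH (Pi.mulSingle 0 s) (1 : (Kx F a b)ˣ)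

theorem h0_mul (s t : Fˣ) : h0 a b m (s * t) = h0 a b m s * h0 a b m t := by
  rw [h0, h0, h0, ← TH_mul, mul_one, Pi.mulSingle_mul]

theorem h0_one : h0 a b m 1 = 1 := by
  rw [h0, Pi.mulSingle_one, TH_one]

theorem h0_inv (s : Fˣ) : h0 a b m s⁻¹ = (h0 a b m s)⁻¹ := by
  rw [eq_inv_iff_mul_eq_one, ← h0_mul, inv_mul_cancel, h0_one]

/-- `e_0 + s f_0` -/
def vs (a b : F) (m : ℕ) [NeZero m] (s : Fˣ) : (Fin m ⊕ Fin m) ⊕ Fin 2 → F :=
  ee a b 0 + (s : F) • ff a b 0

theorem Q_vs (s : Fˣ) : minusForm m F a b (vs a b m s) = s := by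
  rw [vs, Q_add, QuadraticMap.map_smul, Q_ee, Q_ff, polar_smul_right, polar_ee_ff, if_pos rfl]
  simp

theorem Q_vs_ne (s : Fˣ) : minusForm m F a b (vs a b m s) ≠ 0 := by
  rw [Q_vs]
  exact s.ne_zero

theorem vs_eq (s : Fˣ) : vs a b m s = coordE a b m (Pi.single 0 1, Pi.single 0 (s : F), 0) := by
  rw [vs, ee, ff, ← map_smul, ← map_add]
  congr 1
  refine Prod.ext ?_ (Prod.ext ?_ ?_)
  · show Pi.single 0 1 + (s : F) • (0 : Fin m → F) = _
    rw [smul_zero, add_zero]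
  · show (0 : Fin m → F) + (s : F) • (Pi.single 0 1 : Fin m → F) = _
    rw [zero_add, ← Pi.single_smul, smul_eq_mul, mul_one]
  · show (0 : Kx F a b) + (s : F) • (0 : Kx F a b) = 0
    rw [smul_zero, add_zero]

theorem rf_vs_apply (s : Fˣ) (t : W a b m) :
    (rf (vs a b m s) (Q_vs_ne s)).1 (coordE a b m t) =
      coordE a b m (Function.update t.1 0 (-(((s⁻¹ : Fˣ) : F) * t.2.1 0)),
        Function.update t.2.1 0 (-((s : F) * t.1 0)), t.2.2) := by
  have hp : polar (minusForm m F a b) (vs a b m s) (coordE a b m t) = t.2.1 0 + t.1 0 * s := by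
    rw [vs_eq, polar_coord]
    simp [Pi.single_apply, Finset.sum_add_distrib]
  rw [rf_apply, refl_apply, hp, Q_vs, vs_eq, ← map_smul, ← map_sub]
  congr 1
  have hs := s.ne_zero
  refine Prod.ext (funext fun i => ?_) (Prod.ext (funext fun i => ?_) ?_)
  · show t.1 i - ((s : F)⁻¹ * (t.2.1 0 + t.1 0 * s)) * (Pi.single 0 1 : Fin m → F) i =
      Function.update t.1 0 (-(((s⁻¹ : Fˣ) : F) * t.2.1 0)) i
    by_cases hi : i = 0
    · subst hi
      rw [Pi.single_eq_same, Function.update_self, Units.val_inv_eq_inv_val]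
      field_simp
      ring
    · rw [Pi.single_eq_of_ne hi, Function.update_of_ne hi, mul_zero, sub_zero]
  · show t.2.1 i - ((s : F)⁻¹ * (t.2.1 0 + t.1 0 * s)) * (Pi.single 0 (s : F) : Fin m → F) i =
      Function.update t.2.1 0 (-((s : F) * t.1 0)) i
    by_cases hi : i = 0
    · subst hi
      rw [Pi.single_eq_same, Function.update_self]
      field_simp
      ring
    · rw [Pi.single_eq_of_ne hi, Function.update_of_ne hi, mul_zero, sub_zero]
  · show t.2.2 - ((s : F)⁻¹ * (t.2.1 0 + t.1 0 * s)) • (0 : Kx F a b) = t.2.2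
    rw [smul_zero, sub_zero]

/-- `h_0(s)` is a product of two reflections -/
theorem h0_eq (s : Fˣ) : h0 a b m s = rf (vs a b m 1) (Q_vs_ne 1) * rf (vs a b m s) (Q_vs_ne s) := by
  apply ext_Gam
  intro t
  show (TH _ _).1 (coordE a b m t) = (rf (vs a b m 1) (Q_vs_ne 1)).1 ((rf (vs a b m s) (Q_vs_ne s)).1 (coordE a b m t))
  rw [rf_vs_apply, rf_vs_apply, TH_apply]
  congr 1
  refine Prod.ext (funext fun i => ?_) (Prod.ext (funext fun i => ?_) ?_)
  · show (((Pi.mulSingle 0 s : Fin m → Fˣ) i : Fˣ) : F) * t.1 i =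
      Function.update (Function.update t.1 0 (-(((s⁻¹ : Fˣ) : F) * t.2.1 0))) 0
        (-(((1⁻¹ : Fˣ) : F) * Function.update t.2.1 0 (-((s : F) * t.1 0)) 0)) i
    by_cases hi : i = 0
    · subst hi
      rw [Pi.mulSingle_eq_same, Function.update_self, Function.update_self, inv_one, Units.val_one, one_mul,
        neg_neg]
    · rw [Pi.mulSingle_eq_of_ne hi, Function.update_of_ne hi, Function.update_of_ne hi, Units.val_one, one_mul]
  · show ((nu (1 : (Kx F a b)ˣ) * ((Pi.mulSingle 0 s : Fin m → Fˣ) i)⁻¹ : Fˣ) : F) * t.2.1 i =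
      Function.update (Function.update t.2.1 0 (-((s : F) * t.1 0))) 0
        (-(((1 : Fˣ) : F) * Function.update t.1 0 (-(((s⁻¹ : Fˣ) : F) * t.2.1 0)) 0)) i
    rw [nu_one, one_mul]
    by_cases hi : i = 0
    · subst hi
      rw [Pi.mulSingle_eq_same, Function.update_self, Function.update_self, Units.val_one, one_mul,
        neg_neg]
    · rw [Pi.mulSingle_eq_of_ne hi, Function.update_of_ne hi, Function.update_of_ne hi, inv_one, Units.val_one,
        one_mul]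
  · show ((1 : (Kx F a b)ˣ) : Kx F a b) * t.2.2 = t.2.2
    rw [Units.val_one, one_mul]

end Refl

/-! ### rotations of `K` -/

theorem Q_kk_ne (z : (Kx F a b)ˣ) : minusForm m F a b (kk m (z : Kx F a b)) ≠ 0 := by
  rw [Q_kk]
  exact norm_unit_ne_zero z

theorem rf_kk_apply (z : (Kx F a b)ˣ) (t : W a b m) :
    (rf (kk m (z : Kx F a b)) (Q_kk_ne z)).1 (coordE a b m t) =
      coordE a b m (t.1, t.2.1, -((z * (star z)⁻¹ : (Kx F a b)ˣ) * star t.2.2)) := by
  have hp : polar (minusForm m F a b) (kk m (z : Kx F a b)) (coordE a b m t) =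
      2 * (z : Kx F a b).re * t.2.2.re + a * ((z : Kx F a b).re * t.2.2.im + (z : Kx F a b).im * t.2.2.re) +
        2 * b * (z : Kx F a b).im * t.2.2.im := by
    rw [kk, polar_coord]
    simp
  rw [rf_apply, refl_apply, hp, Q_kk, kk, ← map_smul, ← map_sub]
  congr 1
  refine Prod.ext ?_ (Prod.ext ?_ ?_)
  · show t.1 - _ • (0 : Fin m → F) = t.1
    rw [smul_zero, sub_zero]
  · show t.2.1 - _ • (0 : Fin m → F) = t.2.1
    rw [smul_zero, sub_zero]
  · show t.2.2 - ((QuadraticAlgebra.norm (z : Kx F a b))⁻¹ * (2 * (z : Kx F a b).re * t.2.2.re +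
      a * ((z : Kx F a b).re * t.2.2.im + (z : Kx F a b).im * t.2.2.re) +
        2 * b * (z : Kx F a b).im * t.2.2.im)) • (z : Kx F a b) = -((z * (star z)⁻¹ : (Kx F a b)ˣ) * star t.2.2)
    have e1 : algebraMap F (Kx F a b) (2 * (z : Kx F a b).re * t.2.2.re +
      a * ((z : Kx F a b).re * t.2.2.im + (z : Kx F a b).im * t.2.2.re) +
        2 * b * (z : Kx F a b).im * t.2.2.im) = (z : Kx F a b) * star t.2.2 + star (z : Kx F a b) * t.2.2 := by
      apply QuadraticAlgebra.ext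
      · simp
        ring
      · simp
        ring
    have e2 : algebraMap F (Kx F a b) (QuadraticAlgebra.norm (z : Kx F a b))⁻¹ =
        ((z⁻¹ * (star z)⁻¹ : (Kx F a b)ˣ) : Kx F a b) := by
      have h1 : algebraMap F (Kx F a b) (QuadraticAlgebra.norm (z : Kx F a b)) *
          algebraMap F (Kx F a b) (QuadraticAlgebra.norm (z : Kx F a b))⁻¹ = 1 := by
        rw [← map_mul, mul_inv_cancel₀ (norm_unit_ne_zero z), map_one]
      rw [QuadraticAlgebra.algebraMap_norm_eq_mul_star] at h1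
      have h2 : ((z * star z : (Kx F a b)ˣ) : Kx F a b) *
          algebraMap F (Kx F a b) (QuadraticAlgebra.norm (z : Kx F a b))⁻¹ = 1 := h1
      have h3 := congrArg (fun x => (((z * star z)⁻¹ : (Kx F a b)ˣ) : Kx F a b) * x) h2
      simp only [Units.inv_mul_cancel_left, mul_one] at h3
      rw [h3, mul_inv]
    rw [Algebra.smul_def, map_mul, e2, e1, Units.val_mul, Units.val_mul]
    have e3 : ((z⁻¹ : (Kx F a b)ˣ) : Kx F a b) * (z : Kx F a b) = 1 := z.inv_mul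
    have e4 : (((star z)⁻¹ : (Kx F a b)ˣ) : Kx F a b) * star (z : Kx F a b) = 1 := (star z).inv_mul
    linear_combination (-(((star z)⁻¹ : (Kx F a b)ˣ) : Kx F a b) * (z : Kx F a b) * star t.2.2 -
      (((star z)⁻¹ : (Kx F a b)ˣ) : Kx F a b) * star (z : Kx F a b) * t.2.2) * e3 - t.2.2 * e4

/-- the rotation `t / t*` is a product of two reflections -/
theorem rot_eq (z : (Kx F a b)ˣ) :
    TH (1 : Fin m → Fˣ) (z * (star z)⁻¹) =
      rf (kk m (z : Kx F a b)) (Q_kk_ne z) * rf (kk m ((1 : (Kx F a b)ˣ) : Kx F a b)) (Q_kk_ne 1) := by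
  apply ext_Gam
  intro t
  show (TH _ _).1 (coordE a b m t) = (rf (kk m (z : Kx F a b)) (Q_kk_ne z)).1
    ((rf (kk m ((1 : (Kx F a b)ˣ) : Kx F a b)) (Q_kk_ne 1)).1 (coordE a b m t))
  rw [rf_kk_apply, rf_kk_apply, TH_apply]
  congr 1
  have hn : nu (z * (star z)⁻¹) = 1 := by
    rw [nu_mul, nu_inv, mul_inv_eq_one]
    apply Units.ext
    rw [coe_nu, coe_nu, Units.coe_star, QuadraticAlgebra.norm_star]
  refine Prod.ext (funext fun i => ?_) (Prod.ext (funext fun i => ?_) ?_)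
  · show ((1 : Fˣ) : F) * t.1 i = t.1 i
    rw [Units.val_one, one_mul]
  · show ((nu (z * (star z)⁻¹) * (1 : Fˣ)⁻¹ : Fˣ) : F) * t.2.1 i = t.2.1 i
    rw [hn, inv_one, mul_one, Units.val_one, one_mul]
  · show ((z * (star z)⁻¹ : (Kx F a b)ˣ) : Kx F a b) * t.2.2 =
      -(((z * (star z)⁻¹ : (Kx F a b)ˣ) : Kx F a b) *
        star (-(((1 * (star 1)⁻¹ : (Kx F a b)ˣ) : Kx F a b) * star t.2.2)))
    rw [star_one, inv_one, mul_one, Units.val_one, one_mul, star_neg, star_star, mul_neg, neg_neg]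

/-- the reflection in `v0` (`k ↦ k*`) -/
theorem rf_v0_TH [Finite F] (hab : ∀ z₁ z₂ : F, z₁ ^ 2 + a * z₁ * z₂ + b * z₂ ^ 2 = 0 → z₁ = 0 ∧ z₂ = 0)
    (A : Fin m → Fˣ) (l : (Kx F a b)ˣ) :
    rf (v0 a b m) (form_v0_ne hab m) * TH A l = TH A (star l) * rf (v0 a b m) (form_v0_ne hab m) := by
  apply ext_Gam
  intro t
  show (rf (v0 a b m) (form_v0_ne hab m)).1 ((TH A l).1 (coordE a b m t)) =
    (TH A (star l)).1 ((rf (v0 a b m) (form_v0_ne hab m)).1 (coordE a b m t))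
  rw [← perm_Tr hab m, TH_apply, perm_apply, perm_apply, TH_apply]
  congr 1
  have hn : nu (star l) = nu l := by
    apply Units.ext
    rw [coe_nu, coe_nu, Units.coe_star, QuadraticAlgebra.norm_star]
  refine Prod.ext rfl (Prod.ext (funext fun i => ?_) ?_)
  · show ((nu l * (A i)⁻¹ : Fˣ) : F) * t.2.1 i = ((nu (star l) * (A i)⁻¹ : Fˣ) : F) * t.2.1 i
    rw [hn]
  · show star ((l : Kx F a b) * t.2.2) = ((star l : (Kx F a b)ˣ) : Kx F a b) * star t.2.2
    rw [star_mul', Units.coe_star]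

/-! ### classes -/

section Classes

variable [NeZero m] [Finite F]
  (hab : ∀ z₁ z₂ : F, z₁ ^ 2 + a * z₁ * z₂ + b * z₂ ^ 2 = 0 → z₁ = 0 ∧ z₂ = 0)
  (hG : Good (minusForm m F a b))

include hG

/-- the class of a reflection -/
theorem out_rf_eq {w : (Fin m ⊕ Fin m) ⊕ Fin 2 → F} (hw : minusForm m F a b w ≠ 0) :
    out _ (rf w hw) = out _ (rf (vs a b m 1) (Q_vs_ne 1)) * out _ (h0 a b m (Units.mk0 _ hw)) := by
  rw [h0_eq, map_mul, ← mul_assoc, ← map_mul, rf_mul_self, map_one, one_mul]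
  exact out_rf_of_eq hG hw (Q_vs_ne _) (by rw [Q_vs, Units.val_mk0])

theorem out_rf_eq' {w : (Fin m ⊕ Fin m) ⊕ Fin 2 → F} (hw : minusForm m F a b w ≠ 0) :
    ∃ s : Fˣ, out _ (rf w hw) = out _ (rf (v0 a b m) (form_v0_ne hab m)) * out _ (h0 a b m s) := by
  refine ⟨(Units.mk0 _ (form_v0_ne hab m))⁻¹ * Units.mk0 _ hw, ?_⟩
  rw [out_rf_eq hG (form_v0_ne hab m), out_rf_eq hG hw, h0_mul, h0_inv, map_mul, map_inv]
  group

theorem rho_sq : out _ (rf (v0 a b m) (form_v0_ne hab m)) * out _ (rf (v0 a b m) (form_v0_ne hab m)) = 1 := by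
  rw [← map_mul, rf_mul_self, map_one]

omit hG in
theorem rho_comm (s : Fˣ) : out _ (rf (v0 a b m) (form_v0_ne hab m)) * out _ (h0 a b m s) =
    out _ (h0 a b m s) * out _ (rf (v0 a b m) (form_v0_ne hab m)) := by
  rw [← map_mul, ← map_mul, h0, rf_v0_TH hab, star_one]

/-- **the classes of the isometries** -/
theorem out_iso (g : O (minusForm m F a b)) : ∃ s : Fˣ, out _ (ofO _ g) = out _ (h0 a b m s) ∨
    out _ (ofO _ g) = out _ (h0 a b m s) * out _ (rf (v0 a b m) (form_v0_ne hab m)) := by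
  obtain ⟨ρ, hρ⟩ : ∃ ρ, ρ = out _ (rf (v0 a b m) (form_v0_ne hab m)) := ⟨_, rfl⟩
  have h2 : ρ * ρ = 1 := by rw [hρ]; exact rho_sq hab hG
  have hc : ∀ s : Fˣ, ρ * out _ (h0 a b m s) = out _ (h0 a b m s) * ρ := by
    intro s
    rw [hρ]
    exact rho_comm hab s
  rw [← hρ]
  let R : Subgroup (Cfsg.Out (P (minusForm m F a b))) :=
    { carrier := {x | ∃ s : Fˣ, x = out _ (h0 a b m s) ∨ x = out _ (h0 a b m s) * ρ}
      one_mem' := ⟨1, Or.inl (by rw [h0_one, map_one])⟩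
      mul_mem' := by
        rintro x y ⟨s, hs⟩ ⟨t, ht⟩
        refine ⟨s * t, ?_⟩
        rw [h0_mul, map_mul]
        rcases hs with rfl | rfl <;> rcases ht with rfl | rfl
        · exact Or.inl rfl
        · exact Or.inr (mul_assoc _ _ _).symm
        · right
          rw [mul_assoc, hc, mul_assoc]
        · left
          rw [mul_assoc, ← mul_assoc ρ, hc, mul_assoc, h2, mul_one]
      inv_mem' := by
        rintro x ⟨s, hs⟩
        refine ⟨s⁻¹, ?_⟩
        have hρi : ρ⁻¹ = ρ := inv_eq_of_mul_eq_one_left h2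
        rw [h0_inv, map_inv]
        rcases hs with rfl | rfl
        · exact Or.inl rfl
        · right
          rw [mul_inv_rev, hρi]
          have h3 := hc s⁻¹
          rwa [h0_inv, map_inv] at h3 }
  refine out_ofO_mem hG (R := R) ?_ g
  intro w hw
  obtain ⟨s, hs⟩ := out_rf_eq' hab hG hw
  exact ⟨s, Or.inr (by rw [hs, ← hρ, hc])⟩

/-- rotations can be absorbed -/
theorem out_rot (z : (Kx F a b)ˣ) :
    out _ (TH (m := m) (Pi.mulSingle 0 (nu z)) (z * (star z)⁻¹)) = 1 := by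
  have h1 : TH (m := m) (Pi.mulSingle 0 (nu z)) (z * (star z)⁻¹) = h0 a b m (nu z) * TH 1 (z * (star z)⁻¹) := by
    rw [h0, ← TH_mul, mul_one, one_mul]
  rw [h1, rot_eq, h0_eq, map_mul, map_mul, map_mul]
  have e1 : out _ (rf (kk m (z : Kx F a b)) (Q_kk_ne z)) = out _ (rf (vs a b m (nu z)) (Q_vs_ne _)) :=
    out_rf_of_eq hG _ _ (by rw [Q_vs, Q_kk]; rfl)
  have e2 : out _ (rf (kk m ((1 : (Kx F a b)ˣ) : Kx F a b)) (Q_kk_ne 1)) = out _ (rf (vs a b m 1) (Q_vs_ne _)) :=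
    out_rf_of_eq hG _ _ (by
      rw [Q_vs, Q_kk, Units.val_one, map_one]
      rfl)
  rw [e1, e2]
  have e3 : ∀ s : Fˣ, out _ (rf (vs a b m s) (Q_vs_ne s)) * out _ (rf (vs a b m s) (Q_vs_ne s)) = 1 := by
    intro s
    rw [← map_mul, rf_mul_self, map_one]
  calc out _ (rf (vs a b m 1) (Q_vs_ne 1)) * out _ (rf (vs a b m (nu z)) (Q_vs_ne _)) *
        (out _ (rf (vs a b m (nu z)) (Q_vs_ne _)) * out _ (rf (vs a b m 1) (Q_vs_ne 1)))
      = out _ (rf (vs a b m 1) (Q_vs_ne 1)) * (out _ (rf (vs a b m (nu z)) (Q_vs_ne _)) *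
        out _ (rf (vs a b m (nu z)) (Q_vs_ne _))) * out _ (rf (vs a b m 1) (Q_vs_ne 1)) := by group
    _ = 1 := by rw [e3, mul_one, e3]

end Classes

end Cfsg.Agent.H827.DG.Minus
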