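import Mathlib
import Cfsg.Agent.H827.DG.MinusC
import Cfsg.Agent.H891.DG.Nielsen

/-!
# `Cos2` for `PΩ⁻_2m(q)` (helper827)

`cos2_minus : IsPOmegaMinus T → Cos2 T`.

The classes of the torus elements `(x, y, k) ↦ (A x, N(l) A⁻¹ y, l k)` form a normal subgroup of `Out T` with cyclic
quotient generated by the Frobenius automorphism; so we may assume (Euclid) that the first element `x` of the pair is
congruent to a torus element `h`.  The second is congruent to `n` = (Coxeter element) (torus element) (field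
automorphism); `⟨h, u n⟩` contains `Inn T` (`gen_core`).
-/

set_option autoImplicit false
set_option linter.unusedSectionVars false

namespace Cfsg.Agent.H827.DG.Minus

open QuadraticMap Cfsg.Agent.LieClassical.OrthCore Cfsg.Agent.LieClassical.OrthTrans
  Cfsg.Agent.LieClassical.OrthSimple Cfsg.Agent.ClassicalGeometry.OrthSemi
  Cfsg.Agent.ClassicalGeometry.OrthSemiCount Cfsg.Agent.ClassicalGeometry.OrthAut1
  Cfsg.Agent.ClassicalGeometry.OrthAutBasic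
  Cfsg.Agent.ClassicalGeometry.OrthSemiForms Cfsg.Agent.LieClassical.OrthForms
  Cfsg.Agent.H989.OutOrth.Abstract Cfsg.Agent.H989.OutOrth.Basic Cfsg.Agent.H989.OutOrth.Forms
  Cfsg.Agent.H179.OutMinus Cfsg.Agent.H887.SiegelMethod Cfsg.Agent.H891.Gen Cfsg.Agent.H891.DG

/-! ### transfer along isomorphisms -/

section Transfer

universe u v

theorem range_congr {T : Type u} {T' : Type v} [Group T] [Group T'] (e : T ≃* T') {α : MulAut T}
    (h : α ∈ (MulAut.conj : T →* MulAut T).range) :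
    MulAut.congr e α ∈ (MulAut.conj : T' →* MulAut T').range := by
  obtain ⟨g, rfl⟩ := h
  refine ⟨e g, ?_⟩
  ext x
  change e g * x * (e g)⁻¹ = e (g * e.symm x * g⁻¹)
  simp

theorem cos2_congr {T : Type u} {T' : Type v} [Group T] [Group T'] (e : T ≃* T') (h : Cos2 T) : Cos2 T' := by
  intro x y
  obtain ⟨s, hs, t, ht, h1⟩ := h ((MulAut.congr e).symm x) ((MulAut.congr e).symm y)
  refine ⟨MulAut.congr e s, range_congr e hs, MulAut.congr e t, range_congr e ht, ?_⟩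
  intro z hz
  have h2 := h1 (show (MulAut.congr e).symm z ∈ _ from range_congr e.symm hz)
  have h3 := Subgroup.mem_map_of_mem (MulAut.congr e : MulAut T ≃* MulAut T').toMonoidHom h2
  rw [MonoidHom.map_closure, Set.image_pair] at h3
  have h4 : (MulAut.congr e : MulAut T ≃* MulAut T').toMonoidHom ((MulAut.congr e).symm z) = z :=
    (MulAut.congr e).apply_symm_apply z
  have h5 : (MulAut.congr e : MulAut T ≃* MulAut T').toMonoidHom ((MulAut.congr e).symm x * s) =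
      x * MulAut.congr e s := by
    rw [map_mul]
    exact congrArg (· * _) ((MulAut.congr e).apply_symm_apply x)
  have h6 : (MulAut.congr e : MulAut T ≃* MulAut T').toMonoidHom ((MulAut.congr e).symm y * t) =
      y * MulAut.congr e t := by
    rw [map_mul]
    exact congrArg (· * _) ((MulAut.congr e).apply_symm_apply y)
  rwa [h4, h5, h6] at h3

end Transfer

variable {F : Type*} [Field F] {a b : F} {m : ℕ}

/-- powers of the Frobenius semisimilitude -/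
theorem Ph_npow {φ : RingAut F} {ψ : RingAut (Kx F a b)} (h1 : ∀ (x : F) z, ψ (x • z) = φ x • ψ z)
    (h2 : ∀ z, QuadraticAlgebra.norm (ψ z) = φ (QuadraticAlgebra.norm z)) (j : ℕ) :
    ∃ (h1' : ∀ (x : F) z, (ψ ^ j) (x • z) = (φ ^ j) x • (ψ ^ j) z)
      (h2' : ∀ z, QuadraticAlgebra.norm ((ψ ^ j) z) = (φ ^ j) (QuadraticAlgebra.norm z)),
      Ph m h1 h2 ^ j = Ph m h1' h2' := by
  have h1' : ∀ (x : F) z, (ψ ^ j) (x • z) = (φ ^ j) x • (ψ ^ j) z := by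
    induction j with
    | zero => intro x z; rfl
    | succ j ih =>
      intro x z
      rw [pow_succ, pow_succ]
      show (ψ ^ j) (ψ (x • z)) = (φ ^ j) (φ x) • (ψ ^ j) (ψ z)
      rw [h1, ih]
  have h2' : ∀ j : ℕ, ∀ z, QuadraticAlgebra.norm ((ψ ^ j) z) = (φ ^ j) (QuadraticAlgebra.norm z) := by
    intro j
    induction j with
    | zero => intro z; rfl
    | succ j ih =>
      intro z
      rw [pow_succ, pow_succ]
      show QuadraticAlgebra.norm ((ψ ^ j) (ψ z)) = (φ ^ j) (φ (QuadraticAlgebra.norm z))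
      rw [ih, h2]
  exact ⟨h1', h2' j, Subtype.ext (by
    show perm a b m (TΦ φ ψ) ^ j = _
    rw [← map_pow, TΦ_pow]
    rfl)⟩

theorem exists_nu [Finite F] (hab : ∀ z₁ z₂ : F, z₁ ^ 2 + a * z₁ * z₂ + b * z₂ ^ 2 = 0 → z₁ = 0 ∧ z₂ = 0)
    {c : F} (hc : c ≠ 0) : ∃ l : (Kx F a b)ˣ, (nu l : F) = c := by
  obtain ⟨l₁, l₂, hl⟩ := exists_binary_eq a b hab c
  have hnl : QuadraticAlgebra.norm (⟨l₁, l₂⟩ : Kx F a b) = c := by rw [norm_eq]; exact hl
  have hunit : IsUnit (⟨l₁, l₂⟩ : Kx F a b) :=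
    QuadraticAlgebra.isUnit_iff_norm_isUnit.2 (by rw [hnl]; exact IsUnit.mk0 _ hc)
  obtain ⟨l, hlu⟩ := hunit
  exact ⟨l, by rw [coe_nu, hlu, hnl]⟩

/-- every semisimilitude is a torus element times an isometry times a power of `Ph` -/
theorem exists_dec [Finite F] (hab : ∀ z₁ z₂ : F, z₁ ^ 2 + a * z₁ * z₂ + b * z₂ ^ 2 = 0 → z₁ = 0 ∧ z₂ = 0)
    {φ : RingAut F} {ψ : RingAut (Kx F a b)} (h1 : ∀ (x : F) z, ψ (x • z) = φ x • ψ z)
    (h2 : ∀ z, QuadraticAlgebra.norm (ψ z) = φ (QuadraticAlgebra.norm z)) (hφ : ∀ σ : RingAut F, ∃ j : ℕ, φ ^ j = σ)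
    (M : Gam (minusForm m F a b)) :
    ∃ (l : (Kx F a b)ˣ) (g : O (minusForm m F a b)) (j : ℕ), M = TH 1 l * ofO _ g * Ph m h1 h2 ^ j := by
  obtain ⟨σ, c, hM⟩ := M.2
  obtain ⟨j, hj⟩ := hφ σ
  obtain ⟨h1', h2', hP⟩ := Ph_npow (m := m) h1 h2 j
  obtain ⟨l, hl⟩ := exists_nu hab hM.ne
  have hPS : IsSS (minusForm m F a b) (φ ^ j) 1 (Ph m h1' h2').1 := isSS_TΦ h1' h2'
  subst hj
  have h5 := ((isSS_TH (1 : Fin m → Fˣ) l).inv.mul hM).mul hPS.inv
  have e1 : (RingEquiv.symm (φ ^ j)).trans ((φ ^ j : RingAut F).trans (RingEquiv.refl F).symm) = RingEquiv.refl F := by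
    ext x
    show (φ ^ j) ((RingEquiv.symm (φ ^ j)) x) = x
    exact RingEquiv.apply_symm_apply _ _
  have e2 : (RingEquiv.refl F).symm (nu l : F)⁻¹ * (RingEquiv.refl F).symm c *
      ((φ ^ j : RingAut F).trans (RingEquiv.refl F).symm) ((RingEquiv.symm (φ ^ j)) (1 : F)⁻¹) = 1 := by
    rw [inv_one, map_one, map_one, mul_one, hl]
    show c⁻¹ * c = 1
    exact inv_mul_cancel₀ hM.ne
  rw [e2] at h5
  have h6 : IsSS (minusForm m F a b) (RingEquiv.refl F) 1 ((TH (1 : Fin m → Fˣ) l)⁻¹ * M * (Ph m h1' h2')⁻¹).1 := by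
    rw [← e1]
    exact h5
  obtain ⟨g, hg⟩ := exists_ofO h6
  refine ⟨l, g, j, ?_⟩
  rw [hg, hP]
  group

section Main

variable [NeZero m] [Finite F]
  (hab : ∀ z₁ z₂ : F, z₁ ^ 2 + a * z₁ * z₂ + b * z₂ ^ 2 = 0 → z₁ = 0 ∧ z₂ = 0)
  (hG : Good (minusForm m F a b)) {φ : RingAut F} {ψ : RingAut (Kx F a b)}
  (h1 : ∀ (x : F) z, ψ (x • z) = φ x • ψ z)
  (h2 : ∀ z, QuadraticAlgebra.norm (ψ z) = φ (QuadraticAlgebra.norm z))
  (hφ : ∀ σ : RingAut F, ∃ j : ℕ, φ ^ j = σ) {f : ℕ}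
  (hf : Ph m h1 h2 ^ f = rf (v0 a b m) (form_v0_ne hab m))

include hG hφ hf

/-- classes, first form -/
theorem out_dec (M : Gam (minusForm m F a b)) :
    ∃ (A : Fin m → Fˣ) (l : (Kx F a b)ˣ) (j : ℕ), out _ M = out _ (TH A l * Ph m h1 h2 ^ j) := by
  obtain ⟨l, g, j, rfl⟩ := exists_dec hab h1 h2 hφ M
  obtain ⟨s, hs⟩ := out_iso hab hG g
  rcases hs with hs | hs
  · refine ⟨Pi.mulSingle 0 s, l, j, ?_⟩
    rw [map_mul, map_mul, hs, ← map_mul, ← map_mul, h0, ← TH_mul, one_mul, mul_one]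
  · refine ⟨Pi.mulSingle 0 s, l, f + j, ?_⟩
    rw [map_mul, map_mul, hs, ← hf, ← map_mul, ← map_mul, ← map_mul, h0, pow_add, ← mul_assoc, ← mul_assoc,
      ← TH_mul, one_mul, mul_one]

/-- classes, second form -/
theorem out_dec' (M : Gam (minusForm m F a b)) :
    ∃ (A : Fin m → Fˣ) (l : (Kx F a b)ˣ) (j : ℕ), out _ M = out _ (wC a b m * TH A l * Ph m h1 h2 ^ j) := by
  obtain ⟨A, l, j, h⟩ := out_dec hab hG h1 h2 hφ hf ((wC a b m)⁻¹ * M)
  refine ⟨A, l, j, ?_⟩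
  rw [mul_assoc, map_mul, ← h, ← map_mul, mul_inv_cancel_left]

omit hG hφ hf in
/-- `n h n⁻¹` -/
theorem conj_TH_dec (A B : Fin m → Fˣ) (l l₂ : (Kx F a b)ˣ) (j : ℕ) :
    ∃ (A' : Fin m → Fˣ) (l' : (Kx F a b)ˣ),
      TH B l₂ * Ph m h1 h2 ^ j * TH A l * (TH B l₂ * Ph m h1 h2 ^ j)⁻¹ = TH A' l' := by
  obtain ⟨h1', h2', hP⟩ := Ph_npow (m := m) h1 h2 j
  rw [hP]
  refine ⟨fun i => Units.map ((φ ^ j : RingAut F) : F →* F) (A i),
    Units.map ((ψ ^ j : RingAut (Kx F a b)) : Kx F a b →* Kx F a b) l, ?_⟩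
  rw [mul_inv_eq_iff_eq_mul, mul_assoc, Ph_TH, ← mul_assoc, TH_comm, mul_assoc]

end Main

/-- the classes of the torus elements -/
def TorC (m : ℕ) (a b : F) : Subgroup (Cfsg.Out (P (minusForm m F a b))) where
  carrier := {x | ∃ (A : Fin m → Fˣ) (l : (Kx F a b)ˣ), x = out _ (TH A l)}
  one_mem' := ⟨1, 1, by rw [TH_one, map_one]⟩
  mul_mem' := by
    rintro _ _ ⟨A, l, rfl⟩ ⟨A', l', rfl⟩
    exact ⟨A * A', l * l', by rw [TH_mul, map_mul]⟩
  inv_mem' := by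
    rintro _ ⟨A, l, rfl⟩
    exact ⟨A⁻¹, l⁻¹, by rw [← TH_inv, map_inv]⟩

section Main2

variable [NeZero m] [Finite F]
  (hab : ∀ z₁ z₂ : F, z₁ ^ 2 + a * z₁ * z₂ + b * z₂ ^ 2 = 0 → z₁ = 0 ∧ z₂ = 0)
  (hG : Good (minusForm m F a b)) {φ : RingAut F} {ψ : RingAut (Kx F a b)}
  (h1 : ∀ (x : F) z, ψ (x • z) = φ x • ψ z)
  (h2 : ∀ z, QuadraticAlgebra.norm (ψ z) = φ (QuadraticAlgebra.norm z))
  (hφ : ∀ σ : RingAut F, ∃ j : ℕ, φ ^ j = σ) {f : ℕ}
  (hf : Ph m h1 h2 ^ f = rf (v0 a b m) (form_v0_ne hab m))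
  (hsurj : Function.Surjective (Psi (minusForm m F a b)))

include hab hG h1 h2 hφ hf hsurj

theorem out_surj : Function.Surjective (out (minusForm m F a b)) :=
  (QuotientGroup.mk'_surjective _).comp hsurj

theorem TorC_normal : (TorC m a b).Normal := by
  constructor
  rintro _ ⟨A, l, rfl⟩ x
  obtain ⟨M, rfl⟩ := out_surj hab hG h1 h2 hφ hf hsurj x
  obtain ⟨B, l₂, j, hM⟩ := out_dec hab hG h1 h2 hφ hf M
  obtain ⟨A', l', h⟩ := conj_TH_dec h1 h2 A B l l₂ j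
  refine ⟨A', l', ?_⟩
  rw [hM, ← map_inv, ← map_mul, ← map_mul, h]

theorem TorC_cyclic (hN : (TorC m a b).Normal) : IsCyclic (Cfsg.Out (P (minusForm m F a b)) ⧸ TorC m a b) := by
  refine ⟨⟨QuotientGroup.mk (out _ (Ph m h1 h2)), ?_⟩⟩
  intro x
  obtain ⟨x, rfl⟩ := QuotientGroup.mk_surjective x
  obtain ⟨M, rfl⟩ := out_surj hab hG h1 h2 hφ hf hsurj x
  obtain ⟨A, l, j, hM⟩ := out_dec hab hG h1 h2 hφ hf M
  refine ⟨j, ?_⟩
  show (QuotientGroup.mk (out _ (Ph m h1 h2)) : Cfsg.Out (P (minusForm m F a b)) ⧸ TorC m a b) ^ (j : ℤ) = _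
  rw [zpow_natCast, hM, map_mul, map_pow, QuotientGroup.mk_mul, QuotientGroup.mk_pow]
  have h3 : (QuotientGroup.mk (out _ (TH A l)) : Cfsg.Out (P (minusForm m F a b)) ⧸ TorC m a b) = 1 :=
    (QuotientGroup.eq_one_iff _).2 ⟨A, l, rfl⟩
  rw [h3, one_mul]

end Main2

/-- the scalars in `Kˣ` -/
def iu (a b : F) : Fˣ →* (Kx F a b)ˣ := Units.map (algebraMap F (Kx F a b) : F →* Kx F a b)

theorem iu_nu (l : (Kx F a b)ˣ) : iu a b (nu l) = l * star l := Units.ext (by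
  show algebraMap F (Kx F a b) (QuadraticAlgebra.norm (l : Kx F a b)) = _
  rw [QuadraticAlgebra.algebraMap_norm_eq_mul_star, Units.val_mul, Units.coe_star])

theorem nu_star (l : (Kx F a b)ˣ) : nu (star l) = nu l := by
  apply Units.ext
  rw [coe_nu, coe_nu, Units.coe_star, QuadraticAlgebra.norm_star]

/-- the eigenvalue on the root group of `e_0` -/
def ev [NeZero m] (A : Fin m → Fˣ) (l : (Kx F a b)ˣ) : (Kx F a b)ˣ := iu a b (A 0 * (nu l)⁻¹) * l

theorem ev_mul [NeZero m] (A : Fin m → Fˣ) (l : (Kx F a b)ˣ) (y : Kx F a b) :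
    ((A 0 : F) * (nu l : F)⁻¹) • ((l : Kx F a b) * y) = (ev A l : Kx F a b) * y := by
  rw [Algebra.smul_def, ← mul_assoc]
  congr 1
  show _ = algebraMap F (Kx F a b) ((A 0 * (nu l)⁻¹ : Fˣ) : F) * (l : Kx F a b)
  rw [Units.val_mul, Units.val_inv_eq_inv_val]

theorem grp_id {G : Type*} [CommGroup G] (x t s l : G) : x * (t * s) * (l * (t * s⁻¹)) = x * l * t ^ 2 := by
  have e : x * (t * s) * (l * (t * s⁻¹)) = x * l * t ^ 2 * (s * s⁻¹) := by
    rw [pow_two]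
    ac_rfl
  rw [e, mul_inv_cancel, mul_one]

theorem ev_mod [NeZero m] (A : Fin m → Fˣ) (l t : (Kx F a b)ˣ) :
    ev (A * Pi.mulSingle 0 (nu t) : Fin m → Fˣ) (l * (t * (star t)⁻¹)) = ev A l * t ^ 2 := by
  have e1 : nu (l * (t * (star t)⁻¹)) = nu l := by
    rw [nu_mul, nu_mul, nu_inv, nu_star, mul_inv_cancel, mul_one]
  rw [ev, ev, e1, Pi.mul_apply, Pi.mulSingle_eq_same, mul_right_comm (A 0), map_mul, iu_nu]
  exact grp_id _ _ _ _

theorem zpow_adj {G : Type*} [Group G] (g : G) (j : ℤ) :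
    ∃ k : ℤ, g ^ j * (g ^ k) ^ 2 = g ∨ g ^ j * (g ^ k) ^ 2 = g ^ 2 := by
  rcases Int.even_or_odd j with ⟨k, hk⟩ | ⟨k, hk⟩
  · refine ⟨1 - k, Or.inr ?_⟩
    rw [hk, ← zpow_natCast, ← zpow_mul, ← zpow_add, ← zpow_natCast]
    congr 1
    push_cast
    ring
  · refine ⟨-k, Or.inl ?_⟩
    rw [hk, ← zpow_natCast, ← zpow_mul, ← zpow_add]
    conv_rhs => rw [← zpow_one g]
    congr 1
    push_cast
    ring

/-- the scalars as an additive subgroup of `K` -/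
def FinK (a b : F) : AddSubgroup (Kx F a b) where
  carrier := {y | y.im = 0}
  zero_mem' := rfl
  add_mem' := by
    intro x y hx hy
    show x.im + y.im = 0
    rw [show x.im = 0 from hx, show y.im = 0 from hy, add_zero]
  neg_mem' := by
    intro x hx
    show -x.im = 0
    rw [show x.im = 0 from hx, neg_zero]

theorem mem_FinK {y : Kx F a b} : y ∈ FinK a b ↔ y.im = 0 := Iff.rfl

theorem not_scalar [NeZero m] {A : Fin m → Fˣ} {l : (Kx F a b)ˣ}
    (hY : ∀ Y : AddSubgroup (Kx F a b),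
        (∀ y ∈ Y, ((A 0 : F) * (nu l : F)⁻¹) • ((l : Kx F a b) * y) ∈ Y) → Y = ⊥ ∨ Y = ⊤) (c : F) :
    (l : Kx F a b) ≠ c • (1 : Kx F a b) := by
  intro hc
  rcases hY (FinK a b) (fun y hy => by
    rw [mem_FinK] at hy ⊢
    rw [hc, smul_mul_assoc, one_mul, QuadraticAlgebra.im_smul, QuadraticAlgebra.im_smul, hy, smul_zero,
      smul_zero]) with h | h
  · have h3 : (1 : Kx F a b) ∈ FinK a b := mem_FinK.2 rfl
    rw [h, AddSubgroup.mem_bot] at h3
    exact one_ne_zero h3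
  · have h3 : (⟨0, 1⟩ : Kx F a b) ∈ FinK a b := by rw [h]; exact AddSubgroup.mem_top _
    exact one_ne_zero (mem_FinK.1 h3)

/-- the torus part can be improved -/
theorem exists_good_torus [NeZero m] [Finite F]
    (hab : ∀ z₁ z₂ : F, z₁ ^ 2 + a * z₁ * z₂ + b * z₂ ^ 2 = 0 → z₁ = 0 ∧ z₂ = 0)
    (hG : Good (minusForm m F a b)) (A : Fin m → Fˣ) (l : (Kx F a b)ˣ) :
    ∃ (A' : Fin m → Fˣ) (l' : (Kx F a b)ˣ), out _ (TH A l) = out _ (TH A' l') ∧
      (∀ Y : AddSubgroup (Kx F a b),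
        (∀ y ∈ Y, ((A' 0 : F) * (nu l' : F)⁻¹) • ((l' : Kx F a b) * y) ∈ Y) → Y = ⊥ ∨ Y = ⊤) := by
  have hfact := fact_of hab
  have hfinK : Finite (Kx F a b) := Finite.of_equiv _ (QuadraticAlgebra.equivProd (-b) a).symm
  obtain ⟨g, hg⟩ := IsCyclic.exists_generator (α := (Kx F a b)ˣ)
  obtain ⟨j, hj⟩ := Subgroup.mem_zpowers_iff.1 (hg (ev A l))
  obtain ⟨k, hk⟩ := zpow_adj g j
  obtain ⟨t, rfl⟩ : ∃ t, t = g ^ k := ⟨_, rfl⟩
  rw [hj, ← ev_mod] at hk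
  refine ⟨A * Pi.mulSingle 0 (nu (g ^ k)), l * (g ^ k * (star (g ^ k))⁻¹), ?_, ?_⟩
  · rw [TH_mul, map_mul, out_rot hG, mul_one]
  · intro Y hY
    refine inv_sub hg hk Y fun y hy => ?_
    rw [← ev_mul]
    exact hY y hy

theorem mem_range_of_mk {T : Type*} [Group T] {α β : MulAut T}
    (h : QuotientGroup.mk' (Cfsg.Inn T) α = QuotientGroup.mk' (Cfsg.Inn T) β) :
    α⁻¹ * β ∈ (MulAut.conj : T →* MulAut T).range := QuotientGroup.eq.1 h

theorem mk_Psi {V : Type*} [AddCommGroup V] [Module F V] (Q : QuadraticForm F V) (M : Gam Q) :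
    QuotientGroup.mk' (Cfsg.Inn (P Q)) (Psi Q M) = out Q M := rfl

/-- the general form of the last step -/
theorem lift_of_gen {V : Type*} [AddCommGroup V] [Module F V] {Q : QuadraticForm F V} {x y : MulAut (P Q)}
    {h k : Gam Q} (hx : QuotientGroup.mk' (Cfsg.Inn (P Q)) x = out Q h)
    (hy : QuotientGroup.mk' (Cfsg.Inn (P Q)) y = out Q k)
    (hgen : ∀ e : ↥(E Q), ofO Q ⟨e, E_le_O e.2⟩ ∈ Subgroup.closure ({h, k} : Set (Gam Q))) :
    Lift (MulAut.conj : P Q →* MulAut (P Q)).range x y := by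
  refine ⟨_, mem_range_of_mk (hx.trans (mk_Psi Q h).symm), _, mem_range_of_mk (hy.trans (mk_Psi Q k).symm), ?_⟩
  rw [mul_inv_cancel_left, mul_inv_cancel_left, ← Set.image_pair, ← MonoidHom.map_closure]
  rintro _ ⟨g, rfl⟩
  obtain ⟨e, rfl⟩ := QuotientGroup.mk_surjective g
  exact ⟨_, hgen e, Psi_ofO e⟩

/-- **the main theorem for `P Q`** -/
theorem cos2_P {F : Type*} [Field F] [Fintype F] {a b : F} {m : ℕ} (hm : 3 ≤ m)
    (hab : ∀ z₁ z₂ : F, z₁ ^ 2 + a * z₁ * z₂ + b * z₂ ^ 2 = 0 → z₁ = 0 ∧ z₂ = 0) :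
    Cos2 (P (minusForm m F a b)) := by
  have hm0 : NeZero m := ⟨by omega⟩
  have hG : Good (minusForm m F a b) := good_minus (by omega) a b hab
  have hfinE : Finite (((Fin m ⊕ Fin m) ⊕ Fin 2 → F) ≃ₗ[F] ((Fin m ⊕ Fin m) ⊕ Fin 2 → F)) :=
    Finite.of_injective (fun g => g.toEquiv) fun g h e => LinearEquiv.toEquiv_injective e
  have hfinP : Finite (P (minusForm m F a b)) := inferInstance
  have hsurj : Function.Surjective (Psi (minusForm m F a b)) :=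
    Cfsg.Agent.AutOrth.Final.surjective_minus hm hab
  -- the Frobenius automorphism
  obtain ⟨p, hpc⟩ := CharP.exists F
  obtain ⟨f, hp, hF⟩ := FiniteField.card F p
  have : Fact p.Prime := ⟨hp⟩
  obtain ⟨φ, hφ1, hφ2, hφ3⟩ := exists_frob (F := F) f.pos hF
  obtain ⟨ψ, -, h1, h2, -, h4⟩ := exists_frobK hF hab hφ1
  have hPf := Ph_pow hab m h1 h2 hφ2 h4
  have hφ : ∀ σ : RingAut F, ∃ j : ℕ, φ ^ j = σ := by
    have hfin : Finite (RingAut F) := Finite.of_injective (fun σ : RingAut F => (σ : F → F)) DFunLike.coe_injective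
    have hord : orderOf φ = Nat.card (RingAut F) := by
      have h5 : Nat.card (RingAut F) = f := Cfsg.Agent.Lib.FieldAutCard.card_ringAut f.pos hF
      rw [h5]
      exact Nat.dvd_antisymm (orderOf_dvd_of_pow_eq_one hφ2) (hφ3 _ (pow_orderOf_eq_one φ))
    have h6 : Subgroup.zpowers φ = ⊤ := by
      apply Subgroup.eq_top_of_card_eq
      rw [Nat.card_zpowers, hord]
    intro σ
    have h7 : σ ∈ Subgroup.zpowers φ := by rw [h6]; exact Subgroup.mem_top _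
    exact mem_powers_iff_mem_zpowers.2 h7
  have hN := TorC_normal hab hG h1 h2 hφ hPf hsurj
  have hC := TorC_cyclic hab hG h1 h2 hφ hPf hsurj hN
  have hfinO : Finite (Cfsg.Out (P (minusForm m F a b))) := finite_Out
  refine Nielsen.cos2_of_ker ((QuotientGroup.mk' (TorC m a b)).comp
    (QuotientGroup.mk' (Cfsg.Inn (P (minusForm m F a b))))) ?_
  intro x y hx
  have hx' : QuotientGroup.mk' (Cfsg.Inn (P (minusForm m F a b))) x ∈ TorC m a b :=
    (QuotientGroup.eq_one_iff _).1 hx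
  obtain ⟨A₀, l₀, hx0⟩ := hx'
  obtain ⟨A, l, hAl, hY⟩ := exists_good_torus hab hG A₀ l₀
  obtain ⟨My, rfl⟩ := hsurj y
  obtain ⟨B, l₂, j, hMy⟩ := out_dec' hab hG h1 h2 hφ hPf My
  obtain ⟨h1', h2', hP⟩ := Ph_npow (m := m) h1 h2 j
  rw [hP] at hMy
  have hou : out _ (S (minusForm m F a b) (ee a b 0) (kk m (1 : Kx F a b))) = 1 := out_ofO_of_mem (T_mem_E _ _)
  refine lift_of_gen (h := TH A l) (k := S _ (ee a b 0) (kk m (1 : Kx F a b)) * (wC a b m * TH B l₂ * Ph m h1' h2'))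
    (hx0.trans hAl) ?_ ?_
  · rw [mk_Psi, map_mul, hou, one_mul]
    exact hMy
  · intro e
    exact (mem_isoM (E_le_O e.2)).1 (gen_core hab hG hY (not_scalar hY) (B := B) (l₂ := l₂) h1' h2'
      (Subgroup.subset_closure (Set.mem_insert _ _))
      (Subgroup.subset_closure (Set.mem_insert_of_mem _ (Set.mem_singleton _))) e.2)

/-- **`Cos2` for `PΩ⁻_2m(q)`, `m ≥ 4`.** -/
theorem cos2_minus {T : Type*} [Group T] (h : Cfsg.IsPOmegaMinus T) : Cos2 T := by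
  obtain ⟨F, _, _, m, a, b, hm, hab, ⟨e⟩⟩ := h
  have hG : Good (minusForm (m - 1) F a b) := good_minus (by omega) a b hab
  have h1 : Cos2 (P (minusForm (m - 1) F a b)) := cos2_P (by omega) hab
  have e1 := pomegaEquiv hG
  rw [coe_minusForm] at e1
  exact cos2_congr (e.trans e1).symm h1

end Cfsg.Agent.H827.DG.Minus
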